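import Mathlib
import Cfsg.Agent.Lib.Char.LinearChars

/-!
# A counting lemma for bimultiplicative maps of `p`-groups

`β : W → (U →* A)` bimultiplicative, trivial on a subgroup `C` of `W` on the left and on a
normal subgroup `T` of `U` on the right; if all the images `B_z`, `z ∉ C`, are nontrivial of
the same index `p ^ κ` in `A`, then `|W : C| < p ^ (κ + 1) |U : T|`.
-/

set_option autoImplicit false
set_option linter.style.haveILetI false
set_option linter.unusedSectionVars false
set_option linter.deprecated false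

namespace Cfsg.Agent.Lib.Camina.LCCount

open Cfsg

universe u v w

/-- The characters of a finite abelian group trivial on a subgroup are counted by the index. -/
theorem card_annihilator {A : Type*} [CommGroup A] [Finite A] (B : Subgroup A) :
    Nat.card {l : A →* ℂˣ // ∀ b ∈ B, l b = 1} = B.index := by
  have e : {l : A →* ℂˣ // ∀ b ∈ B, l b = 1} ≃ (A ⧸ B →* ℂˣ) :=
    { toFun := fun l => QuotientGroup.lift B l.1 l.2
      invFun := fun m => ⟨m.comp (QuotientGroup.mk' B), fun b hb => by
        simp only [MonoidHom.comp_apply, QuotientGroup.mk'_apply]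
        rw [(QuotientGroup.eq_one_iff b).2 hb, map_one]⟩
      left_inv := fun l => by
        apply Subtype.ext
        ext a
        rfl
      right_inv := fun m => by
        ext a
        rfl }
  rw [Nat.card_congr e]
  haveI : Finite (A ⧸ B) := inferInstance
  have hE : HasEnoughRootsOfUnity ℂ (Monoid.exponent (A ⧸ B)) := inferInstance
  rw [CommGroup.card_monoidHom_of_hasEnoughRootsOfUnity]
  rfl

/-- The number of homomorphisms to `ℂˣ` trivial on a normal subgroup is at most the index. -/
theorem card_hom_le {U : Type*} [Group U] [Finite U] (T : Subgroup U) [T.Normal] :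
    Nat.card {m : U →* ℂˣ // ∀ t ∈ T, m t = 1} ≤ T.index := by
  have e : {m : U →* ℂˣ // ∀ t ∈ T, m t = 1} ≃ (U ⧸ T →* ℂˣ) :=
    { toFun := fun l => QuotientGroup.lift T l.1 l.2
      invFun := fun m => ⟨m.comp (QuotientGroup.mk' T), fun b hb => by
        simp only [MonoidHom.comp_apply, QuotientGroup.mk'_apply]
        rw [(QuotientGroup.eq_one_iff b).2 hb, map_one]⟩
      left_inv := fun l => by
        apply Subtype.ext
        ext a
        rfl
      right_inv := fun m => by
        ext a
        rfl }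
  rw [Nat.card_congr e]
  have h1 : Nat.card (U ⧸ T →* ℂˣ) = (commutator (U ⧸ T)).index := by
    rw [← Cfsg.Agent.Lib.Char.LinearChars.card_linear_chars]
    exact (Nat.card_congr (Cfsg.Agent.Lib.Char.LinearChars.linearEquivHom (G := U ⧸ T))).symm
  rw [h1]
  have h2 : (commutator (U ⧸ T)).index ∣ Nat.card (U ⧸ T) := Subgroup.index_dvd_card _
  exact Nat.le_of_dvd Nat.card_pos h2

/-- Finiteness of the characters. -/
theorem finite_hom {A : Type*} [Group A] [Finite A] : Finite (A →* ℂˣ) := by
  have h1 : Nat.card (A →* ℂˣ) = (commutator A).index := by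
    rw [← Cfsg.Agent.Lib.Char.LinearChars.card_linear_chars]
    exact (Nat.card_congr (Cfsg.Agent.Lib.Char.LinearChars.linearEquivHom (G := A))).symm
  apply Nat.finite_of_card_ne_zero
  rw [h1]
  exact Subgroup.index_ne_zero_of_finite

/-- **The counting lemma.** -/
theorem bil_count {W : Type u} {U : Type v} {A : Type w} [Group W] [Finite W] [Group U] [Finite U]
    [CommGroup A] [Finite A] {p : ℕ} [hp : Fact p.Prime] (hW : IsPGroup p W) (hA : IsPGroup p A)
    (C : Subgroup W) (T : Subgroup U) [T.Normal] (β : W → (U →* A))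
    (hβ : ∀ z z' u, β (z * z') u = β z u * β z' u)
    (hC : ∀ z ∈ C, ∀ u, β z u = 1) (hT : ∀ z, ∀ t ∈ T, β z t = 1) (κ : ℕ)
    (hB : ∀ z, z ∉ C → (β z).range.index = p ^ κ) (hB1 : ∀ z, z ∉ C → (β z).range ≠ ⊥)
    (hcard : p ^ (κ + 1) * T.index * Nat.card C ≤ Nat.card W) (hne : C ≠ ⊤) : False := by
  classical
  haveI : Finite (A →* ℂˣ) := finite_hom
  cases nonempty_fintype W
  cases nonempty_fintype (A →* ℂˣ)
  -- the maps `Φ l`
  let Φ : (A →* ℂˣ) → W →* (U →* ℂˣ) := fun l =>
    MonoidHom.mk' (fun z => l.comp (β z)) (by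
      intro z z'
      ext u
      simp [hβ])
  have hΦ : ∀ l z u, Φ l z u = l (β z u) := fun _ _ _ => rfl
  set q : ℕ := p ^ κ with hq
  -- counts for a fixed `z`
  have hcountz : ∀ z, z ∉ C →
      ((Finset.univ.filter (fun l : A →* ℂˣ => l ≠ 1 ∧ Φ l z = 1)).card : ℤ) = (q : ℤ) - 1 := by
    intro z hz
    have h1 := card_annihilator (β z).range
    rw [hB z hz] at h1
    have h2 : (Finset.univ.filter (fun l : A →* ℂˣ => Φ l z = 1)).card = q := by
      rw [← h1, Nat.card_eq_fintype_card, ← Fintype.card_subtype]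
      refine Fintype.card_congr (Equiv.subtypeEquivRight ?_)
      intro l
      constructor
      · rintro hl _ ⟨u, rfl⟩
        have := DFunLike.congr_fun hl u
        simpa [hΦ] using this
      · intro hl
        ext u
        simp [hΦ, hl _ (MonoidHom.mem_range.2 ⟨u, rfl⟩)]
    have h3 : Finset.univ.filter (fun l : A →* ℂˣ => Φ l z = 1) =
        insert 1 (Finset.univ.filter (fun l : A →* ℂˣ => l ≠ 1 ∧ Φ l z = 1)) := by
      ext l
      simp only [Finset.mem_filter, Finset.mem_univ, true_and, Finset.mem_insert]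
      constructor
      · intro h
        by_cases hl : l = 1
        · exact Or.inl hl
        · exact Or.inr ⟨hl, h⟩
      · rintro (rfl | ⟨-, h⟩)
        · ext u
          simp [hΦ]
        · exact h
    rw [h3, Finset.card_insert_of_notMem (by simp)] at h2
    rw [← h2]
    push_cast
    ring
  -- counts for a fixed `l`
  have hCker : ∀ l, C ≤ (Φ l).ker := by
    intro l z hz
    rw [MonoidHom.mem_ker]
    ext u
    simp [hΦ, hC z hz u]
  have hcountl : ∀ l : A →* ℂˣ,
      ((Finset.univ.filter (fun z : W => z ∉ C ∧ Φ l z = 1)).card : ℤ) =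
        (Nat.card (Φ l).ker : ℤ) - Nat.card C := by
    intro l
    have h1 : Nat.card (Φ l).ker = (Finset.univ.filter (fun z : W => Φ l z = 1)).card := by
      rw [Nat.card_eq_fintype_card, ← Fintype.card_subtype]
      exact Fintype.card_congr (Equiv.subtypeEquivRight (fun z => MonoidHom.mem_ker))
    have h2 : Nat.card C = (Finset.univ.filter (fun z : W => z ∈ C)).card := by
      rw [Nat.card_eq_fintype_card, ← Fintype.card_subtype]
    rw [h1, h2]
    have h3 : (Finset.univ.filter (fun z : W => Φ l z = 1)) =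
        (Finset.univ.filter (fun z : W => z ∉ C ∧ Φ l z = 1)) ∪
        (Finset.univ.filter (fun z : W => z ∈ C)) := by
      ext z
      simp only [Finset.mem_filter, Finset.mem_univ, true_and, Finset.mem_union]
      constructor
      · intro h
        by_cases hz : z ∈ C
        · exact Or.inr hz
        · exact Or.inl ⟨hz, h⟩
      · rintro (⟨-, h⟩ | h)
        · exact h
        · exact hCker l h
    rw [h3, Finset.card_union_of_disjoint]
    · push_cast; ring
    · rw [Finset.disjoint_left]
      intro z h1 h2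
      simp only [Finset.mem_filter, Finset.mem_univ, true_and] at h1 h2
      exact h1.1 h2
  -- double counting
  have hdouble : ∑ z : W, ∑ l : A →* ℂˣ, (if z ∉ C ∧ l ≠ 1 ∧ Φ l z = 1 then (1 : ℤ) else 0) =
      ∑ l : A →* ℂˣ, ∑ z : W, (if z ∉ C ∧ l ≠ 1 ∧ Φ l z = 1 then (1 : ℤ) else 0) :=
    Finset.sum_comm
  have hleft : ∑ z : W, ∑ l : A →* ℂˣ, (if z ∉ C ∧ l ≠ 1 ∧ Φ l z = 1 then (1 : ℤ) else 0) =
      ((Nat.card W : ℤ) - Nat.card C) * ((q : ℤ) - 1) := by
    have h1 : ∀ z : W, ∑ l : A →* ℂˣ, (if z ∉ C ∧ l ≠ 1 ∧ Φ l z = 1 then (1 : ℤ) else 0) =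
        if z ∉ C then (q : ℤ) - 1 else 0 := by
      intro z
      by_cases hz : z ∈ C
      · simp [hz]
      · simp only [hz, not_false_eq_true, true_and, if_true]
        rw [Finset.sum_boole]
        exact hcountz z hz
    simp only [h1]
    rw [Finset.sum_ite, Finset.sum_const_zero, add_zero, Finset.sum_const, nsmul_eq_mul]
    congr 1
    have h2 : Nat.card C = (Finset.univ.filter (fun z : W => z ∈ C)).card := by
      rw [Nat.card_eq_fintype_card, ← Fintype.card_subtype]
    have h3 := Finset.card_filter_add_card_filter_not (s := (Finset.univ : Finset W)) (fun z => z ∈ C)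
    rw [Nat.card_eq_fintype_card (α := W), h2, ← Finset.card_univ (α := W)]
    have h4 : ((Finset.univ.filter (fun z : W => z ∉ C)).card : ℤ) +
      ((Finset.univ.filter (fun z : W => z ∈ C)).card : ℤ) = ((Finset.univ : Finset W).card : ℤ) := by
      rw [← h3]; push_cast; ring
    linarith
  have hright : ∑ l : A →* ℂˣ, ∑ z : W, (if z ∉ C ∧ l ≠ 1 ∧ Φ l z = 1 then (1 : ℤ) else 0) =
      ∑ l : A →* ℂˣ, (if l ≠ 1 then (Nat.card (Φ l).ker : ℤ) - Nat.card C else 0) := by
    refine Finset.sum_congr rfl (fun l _ => ?_)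
    by_cases hl : l = 1
    · simp [hl]
    · simp only [hl, ne_eq, not_false_eq_true, if_true, true_and]
      rw [Finset.sum_boole]
      exact hcountl l
  -- divisibility
  obtain ⟨z₀, hz₀⟩ : ∃ z, z ∉ C := by
    by_contra h
    push Not at h
    exact hne (eq_top_iff.2 (fun z _ => h z))
  set D : ℤ := ((p ^ (κ + 1) * Nat.card C : ℕ) : ℤ) with hD
  obtain ⟨w, hw⟩ := IsPGroup.iff_card.1 hW
  have hprime := hp.out
  have hTpos : 0 < T.index := Nat.pos_of_ne_zero Subgroup.index_ne_zero_of_finite
  have hdvdnat : ∀ R : Subgroup W, C ≤ R → p ^ (κ + 1) * T.index * Nat.card C ≤ Nat.card R * T.index →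
      p ^ (κ + 1) * Nat.card C ∣ Nat.card R := by
    intro R _ hR
    obtain ⟨r, hr⟩ := IsPGroup.iff_card.1 (hW.to_subgroup R)
    obtain ⟨c, hc⟩ := IsPGroup.iff_card.1 (hW.to_subgroup C)
    have h1 : p ^ (κ + 1) * Nat.card C ≤ Nat.card R := by
      have : p ^ (κ + 1) * Nat.card C * T.index ≤ Nat.card R * T.index := by
        calc p ^ (κ + 1) * Nat.card C * T.index = p ^ (κ + 1) * T.index * Nat.card C := by ring
          _ ≤ _ := hR
      exact Nat.le_of_mul_le_mul_right this hTpos
    rw [hr, hc, ← pow_add] at h1 ⊢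
    exact pow_dvd_pow _ ((Nat.pow_le_pow_iff_right hprime.one_lt).1 h1)
  have hdW : (D : ℤ) ∣ (Nat.card W : ℤ) := by
    have h1 : p ^ (κ + 1) * Nat.card C ∣ Nat.card W := by
      have h2 : p ^ (κ + 1) * T.index * Nat.card C ≤ Nat.card (⊤ : Subgroup W) * T.index := by
        rw [Subgroup.card_top]
        exact hcard.trans (Nat.le_mul_of_pos_right _ hTpos)
      have := hdvdnat ⊤ le_top h2
      rwa [Subgroup.card_top] at this
    rw [hD]
    exact Int.natCast_dvd_natCast.2 h1
  have hdR : ∀ l : A →* ℂˣ, (D : ℤ) ∣ (Nat.card (Φ l).ker : ℤ) := by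
    intro l
    have h1 : p ^ (κ + 1) * Nat.card C ∣ Nat.card (Φ l).ker := by
      apply hdvdnat _ (hCker l)
      refine hcard.trans ?_
      have h2 := Subgroup.card_mul_index (Φ l).ker
      rw [← h2]
      refine Nat.mul_le_mul_left _ ?_
      -- the index of the kernel is at most that of `T`
      rw [Subgroup.index_ker]
      have h3 := card_hom_le T
      refine le_trans ?_ h3
      let ι : (Φ l).range → {m : U →* ℂˣ // ∀ t ∈ T, m t = 1} := fun m => ⟨m.1, by
        obtain ⟨m, z, hz⟩ := m
        intro t ht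
        simp only [← hz]
        rw [hΦ, hT z t ht, map_one]⟩
      have hι : Function.Injective ι := by
        intro a b hab
        have h4 : (ι a).1 = (ι b).1 := by rw [hab]
        exact Subtype.ext h4
      haveI : Finite (U →* ℂˣ) := finite_hom
      exact Nat.card_le_card_of_injective ι hι
    rw [hD]
    exact Int.natCast_dvd_natCast.2 h1
  have hcardL : (Finset.univ.filter (fun l : A →* ℂˣ => l ≠ 1)).card + 1 = Nat.card A := by
    have hE : HasEnoughRootsOfUnity ℂ (Monoid.exponent A) := inferInstance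
    have h1 : Nat.card (A →* ℂˣ) = Nat.card A :=
      CommGroup.card_monoidHom_of_hasEnoughRootsOfUnity A ℂ
    rw [← h1, Nat.card_eq_fintype_card, ← Finset.card_univ]
    have h2 : (Finset.univ : Finset (A →* ℂˣ)) =
        insert 1 (Finset.univ.filter (fun l : A →* ℂˣ => l ≠ 1)) := by
      ext l
      simp only [Finset.mem_univ, Finset.mem_insert, Finset.mem_filter, true_and, true_iff]
      exact eq_or_ne l 1
    conv_rhs => rw [h2]
    rw [Finset.card_insert_of_notMem (by simp)]
  -- the order of `A`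
  have hdA : p ^ (κ + 1) ∣ Nat.card A := by
    have h1 := (β z₀).range.card_mul_index
    rw [hB z₀ hz₀] at h1
    obtain ⟨n, hn⟩ := IsPGroup.iff_card.1 (hA.to_subgroup (β z₀).range)
    have hn0 : n ≠ 0 := by
      rintro rfl
      apply hB1 z₀ hz₀
      rw [pow_zero] at hn
      exact (Subgroup.eq_bot_iff_card _).2 hn
    have h2 : p ∣ Nat.card (β z₀).range := hn ▸ dvd_pow_self p hn0
    rw [← h1, pow_succ, ← hq, mul_comm (Nat.card _)]
    exact Nat.mul_dvd_mul_left _ h2
  -- assemble
  have heq := hleft.symm.trans (hdouble.trans hright)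
  have hsplit : ∑ l : A →* ℂˣ, (if l ≠ 1 then (Nat.card (Φ l).ker : ℤ) - Nat.card C else 0) =
      (∑ l : A →* ℂˣ, (if l ≠ 1 then (Nat.card (Φ l).ker : ℤ) else 0)) -
        ((Nat.card A : ℤ) - 1) * Nat.card C := by
    have h1 : ∀ l : A →* ℂˣ, (if l ≠ 1 then (Nat.card (Φ l).ker : ℤ) - Nat.card C else 0) =
        (if l ≠ 1 then (Nat.card (Φ l).ker : ℤ) else 0) - (if l ≠ 1 then (Nat.card C : ℤ) else 0) := by
      intro l
      by_cases hl : l = 1 <;> simp [hl]
    simp only [h1]
    rw [Finset.sum_sub_distrib]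
    congr 1
    rw [← Finset.sum_filter, Finset.sum_const, nsmul_eq_mul, ← hcardL]
    push_cast
    ring
  have hdS : D ∣ ∑ l : A →* ℂˣ, (if l ≠ 1 then (Nat.card (Φ l).ker : ℤ) else 0) := by
    apply Finset.dvd_sum
    intro l _
    by_cases hl : l = 1
    · simp [hl]
    · simp only [hl, ne_eq, not_false_eq_true, if_true]
      exact hdR l
  have hdAC : D ∣ (Nat.card A : ℤ) * Nat.card C := by
    rw [hD]
    exact_mod_cast Nat.mul_dvd_mul_right hdA _
  have hfinal : D ∣ (q : ℤ) * Nat.card C := by
    rw [hsplit] at heq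
    have : (q : ℤ) * Nat.card C = (Nat.card W : ℤ) * ((q : ℤ) - 1) -
        (∑ l : A →* ℂˣ, (if l ≠ 1 then (Nat.card (Φ l).ker : ℤ) else 0)) +
        (Nat.card A : ℤ) * Nat.card C := by
      linear_combination (-1 : ℤ) * heq
    rw [this]
    exact dvd_add (dvd_sub (Dvd.dvd.mul_right hdW _) hdS) hdAC
  have hCpos : 0 < Nat.card C := Nat.card_pos
  have h1 : p ^ (κ + 1) * Nat.card C ∣ q * Nat.card C := by
    rw [hD] at hfinal
    exact_mod_cast hfinal
  have h2 : p ^ (κ + 1) ∣ q := Nat.dvd_of_mul_dvd_mul_right hCpos h1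
  rw [hq] at h2
  have h3 := (Nat.pow_dvd_pow_iff_le_right hprime.one_lt).1 h2
  omega

end Cfsg.Agent.Lib.Camina.LCCount
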