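import Mathlib
import Cfsg.Agent.Lib.Camina.LCCount

/-!
# Camina `p`-groups with a transitive automorphism group on the abelianisation have class two

Let `T` be a finite `p`-group in which every `z ∉ T'` is conjugate to all of `z T'` and on whose
`T / T'` the automorphism group is transitive outside of `1`.  Then `T` has class at most `2`.
-/

set_option autoImplicit false
set_option linter.style.haveILetI false
set_option linter.unusedSectionVars false
set_option linter.deprecated false

namespace Cfsg.Agent.Lib.Camina.LC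

open scoped commutatorElement

universe u

/-- The class of `x` as any set: order of the centraliser times the size of the class. -/
theorem card_centralizer_mul_of_class {G : Type*} [Group G] [Finite G] (x : G) (S : Set G)
    (hS : ∀ w, IsConj x w ↔ w ∈ S) :
    Nat.card (Subgroup.centralizer ({x} : Set G)) * Nat.card S = Nat.card G := by
  classical
  have e : MulAction.orbit (ConjAct G) x ≃ G ⧸ Subgroup.centralizer ({x} : Set G) :=
    (MulAction.orbitEquivQuotientStabilizer (ConjAct G) x).trans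
      (Subgroup.quotientEquivOfEq (ConjAct.stabilizer_eq_centralizer x))
  have hset : MulAction.orbit (ConjAct G) x = S := by
    ext y
    rw [ConjAct.orbit_eq_carrier_conjClasses, ConjClasses.mem_carrier_iff_mk_eq,
      ConjClasses.mk_eq_mk_iff_isConj, ← hS y]
    exact ⟨fun h => h.symm, fun h => h.symm⟩
  have h2 : Nat.card S = (Subgroup.centralizer ({x} : Set G)).index := by
    rw [Subgroup.index, ← Nat.card_congr e, hset]
  rw [h2]
  exact Subgroup.card_mul_index _

section Core

variable {W : Type u} [Group W] [Finite W] {p : ℕ} [hp : Fact p.Prime]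

/-- **Core**: the case of class at most `3`. -/
theorem lc_core (hW : IsPGroup p W)
    (h4 : ⁅⁅commutator W, (⊤ : Subgroup W)⁆, (⊤ : Subgroup W)⁆ = ⊥)
    (hcam : ∀ z, z ∉ commutator W → ∀ h ∈ commutator W, ∃ y, y * z * y⁻¹ = z * h)
    (htrans : ∀ z z', z ∉ commutator W → z' ∉ commutator W →
      ∃ α : W ≃* W, z'⁻¹ * α z ∈ commutator W) :
    ⁅commutator W, (⊤ : Subgroup W)⁆ = ⊥ := by
  classical
  by_contra hA
  set γ : Subgroup W := commutator W with hγ
  set A₀ : Subgroup W := ⁅γ, (⊤ : Subgroup W)⁆ with hA₀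
  have hγn : γ.Normal := inferInstance
  have hAn : A₀.Normal := Subgroup.commutator_normal _ _
  have hAγ : A₀ ≤ γ := Subgroup.commutator_le_left _ _
  have hcent : ∀ a ∈ A₀, ∀ x : W, a * x = x * a := by
    intro a ha x
    have h1 : ⁅a, x⁆ ∈ (⊥ : Subgroup W) := h4 ▸ Subgroup.commutator_mem_commutator ha (Subgroup.mem_top x)
    rw [Subgroup.mem_bot] at h1
    exact commutatorElement_eq_one_iff_mul_comm.1 h1
  have hmem : ∀ u ∈ γ, ∀ z : W, ⁅u, z⁆ ∈ A₀ := fun u hu z =>
    Subgroup.commutator_mem_commutator hu (Subgroup.mem_top z)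
  -- `γ` is abelian
  have hγγ : ∀ u ∈ γ, ∀ v ∈ γ, ⁅u, v⁆ = 1 := by
    have h1 : ⁅⁅(⊤ : Subgroup W), (⊤ : Subgroup W)⁆, γ⁆ = ⊥ := by
      apply Subgroup.commutator_commutator_eq_bot_of_rotate
      · rw [Subgroup.commutator_comm (⊤ : Subgroup W) γ]
        exact h4
      · exact h4
    intro u hu v hv
    have h2 : ⁅u, v⁆ ∈ ⁅⁅(⊤ : Subgroup W), (⊤ : Subgroup W)⁆, γ⁆ :=
      Subgroup.commutator_mem_commutator hu hv
    rw [h1, Subgroup.mem_bot] at h2
    exact h2
  letI instA : CommGroup A₀ :=
    { (inferInstance : Group A₀) with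
      mul_comm := fun a b => Subtype.ext (hcent a a.2 b) }
  -- the pairing
  let β : W → (γ →* A₀) := fun z =>
    MonoidHom.mk' (fun u : γ => (⟨⁅(u : W), z⁆, hmem u u.2 z⟩ : A₀)) (by
      intro u v
      apply Subtype.ext
      show ⁅(u : W) * v, z⁆ = ⁅(u : W), z⁆ * ⁅(v : W), z⁆
      have h1 : ⁅(u : W) * v, z⁆ = (u : W) * ⁅(v : W), z⁆ * (u : W)⁻¹ * ⁅(u : W), z⁆ := by
        simp only [commutatorElement_def]; group
      rw [h1]
      have h2 := hcent _ (hmem v v.2 z) (u : W)
      rw [← h2]
      have h3 := hcent _ (hmem v v.2 z) ⁅(u : W), z⁆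
      simp only [mul_inv_cancel_right]
      exact h3)
  have hβval : ∀ z (u : γ), ((β z u : A₀) : W) = ⁅(u : W), z⁆ := fun _ _ => rfl
  have hβ : ∀ z z' u, β (z * z') u = β z u * β z' u := by
    intro z z' u
    apply Subtype.ext
    show ⁅(u : W), z * z'⁆ = ⁅(u : W), z⁆ * ⁅(u : W), z'⁆
    have h1 : ⁅(u : W), z * z'⁆ = ⁅(u : W), z⁆ * (z * ⁅(u : W), z'⁆ * z⁻¹) := by
      simp only [commutatorElement_def]; group
    rw [h1]
    have h2 := hcent _ (hmem u u.2 z') z
    rw [← h2]
    simp
  have hC : ∀ z ∈ γ, ∀ u, β z u = 1 := by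
    intro z hz u
    apply Subtype.ext
    show ⁅(u : W), z⁆ = 1
    exact hγγ u u.2 z hz
  let T : Subgroup γ := A₀.subgroupOf γ
  haveI hTn : T.Normal := inferInstance
  have hT : ∀ z, ∀ t ∈ T, β z t = 1 := by
    intro z t ht
    apply Subtype.ext
    show ⁅(t : W), z⁆ = 1
    exact commutatorElement_eq_one_iff_mul_comm.2 (hcent _ ht z)
  have hγtop : γ ≠ ⊤ := by
    intro h
    apply hA
    have h1 : (⁅(⊤ : Subgroup W), (⊤ : Subgroup W)⁆ : Subgroup W) = ⊤ := (commutator_def W).symm.trans h
    have h2 : A₀ = ⊤ := by rw [hA₀, h]; exact h1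
    rw [h2] at h4
    rw [h2, ← h1]
    exact h4
  obtain ⟨z₀, hz₀⟩ : ∃ z, z ∉ γ := by
    by_contra h
    push Not at h
    exact hγtop (eq_top_iff.2 fun z _ => h z)
  have hAp : IsPGroup p A₀ := hW.to_subgroup A₀
  have hαγ : ∀ (α : W ≃* W), ∀ u ∈ γ, α u ∈ γ := by
    intro α u hu
    have hchar : (commutator W).Characteristic := inferInstance
    exact (Subgroup.characteristic_iff_le_comap.1 hchar α) hu
  have hαA : ∀ (α : W ≃* W), ∀ a ∈ A₀, α a ∈ A₀ := by
    intro α
    have : A₀ ≤ A₀.comap (α : W →* W) := by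
      rw [hA₀, Subgroup.commutator_le]
      intro u hu g _
      show α ⁅u, g⁆ ∈ ⁅γ, (⊤ : Subgroup W)⁆
      rw [map_commutatorElement]
      exact hmem _ (hαγ α u hu) _
    exact fun a ha => this ha
  have hle : ∀ z z', z ∉ γ → z' ∉ γ → Nat.card (β z').range ≤ Nat.card (β z).range := by
    intro z z' hz hz'
    obtain ⟨α, hα⟩ := htrans z' z hz' hz
    set v : W := z⁻¹ * α z' with hv
    have hzv : α z' = z * v := by rw [hv]; group
    have hval : ∀ u : γ, ⁅α (u : W), α z'⁆ = ⁅α (u : W), z⁆ := by
      intro u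
      have h1 := hβ z v (⟨α u, hαγ α u u.2⟩ : γ)
      rw [hC v hα, mul_one] at h1
      rw [hzv]
      exact congrArg Subtype.val h1
    let f : (β z').range → (β z).range := fun x =>
      ⟨⟨α (x.1 : W), hαA α _ x.1.2⟩, by
        obtain ⟨x, u, hu⟩ := x
        refine ⟨⟨α u, hαγ α u u.2⟩, ?_⟩
        apply Subtype.ext
        show ⁅α (u : W), z⁆ = α ((x : A₀) : W)
        rw [← hu, ← hval, ← map_commutatorElement]
        rfl⟩
    have hf : Function.Injective f := by
      intro a b hab
      have h1 : α ((a.1 : A₀) : W) = α ((b.1 : A₀) : W) :=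
        congrArg (fun x : (β z).range => ((x.1 : A₀) : W)) hab
      exact Subtype.ext (Subtype.ext (α.injective h1))
    exact Nat.card_le_card_of_injective f hf
  have hcardeq : ∀ z, z ∉ γ → Nat.card (β z).range = Nat.card (β z₀).range := fun z hz =>
    le_antisymm (hle z₀ z hz₀ hz) (hle z z₀ hz hz₀)
  -- the exponent
  obtain ⟨n, hn⟩ := IsPGroup.iff_card.1 hAp
  have hi₀ : (β z₀).range.index ∣ p ^ n := by
    rw [← hn]
    exact Subgroup.index_dvd_card _
  obtain ⟨κ, -, hκ⟩ := (Nat.dvd_prime_pow hp.out).1 hi₀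
  have hB : ∀ z, z ∉ γ → (β z).range.index = p ^ κ := by
    intro z hz
    have h1 := (β z).range.card_mul_index
    have h2 := (β z₀).range.card_mul_index
    rw [hcardeq z hz] at h1
    rw [← h2] at h1
    rw [← hκ]
    exact Nat.eq_of_mul_eq_mul_left Nat.card_pos h1
  have hB1 : ∀ z, z ∉ γ → (β z).range ≠ ⊥ := by
    intro z hz hbot
    apply hA
    have hz1 : Nat.card (β z).range = 1 := by rw [hbot]; exact Subgroup.card_bot
    have hall : ∀ z', z' ∉ γ → ∀ u, β z' u = 1 := by
      intro z' hz' u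
      have h1 : Nat.card (β z').range = 1 := by
        rw [hcardeq z' hz', ← hcardeq z hz, hz1]
      have h2 : (β z').range = ⊥ := (Subgroup.eq_bot_iff_card _).2 h1
      have h3 : β z' u ∈ (β z').range := ⟨u, rfl⟩
      rw [h2] at h3
      exact h3
    rw [eq_bot_iff, hA₀, Subgroup.commutator_le]
    intro u hu g _
    rw [Subgroup.mem_bot]
    by_cases hg : g ∈ γ
    · exact hγγ u hu g hg
    · exact congrArg Subtype.val (hall g hg ⟨u, hu⟩)
  -- the order estimate
  have hcard : p ^ (κ + 1) * T.index * Nat.card γ ≤ Nat.card W := by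
    set Cz : Subgroup W := Subgroup.centralizer ({z₀} : Set W) with hCz
    have hconj : ∀ w, IsConj z₀ w ↔ w ∈ ({w | z₀⁻¹ * w ∈ γ} : Set W) := by
      intro w
      constructor
      · intro h
        obtain ⟨c, rfl⟩ := isConj_iff.1 h
        have : z₀⁻¹ * (c * z₀ * c⁻¹) = ⁅z₀⁻¹, c⁆ := by
          rw [commutatorElement_def]; group
        show z₀⁻¹ * (c * z₀ * c⁻¹) ∈ γ
        rw [this]
        exact Subgroup.commutator_mem_commutator (Subgroup.mem_top _) (Subgroup.mem_top _)
      · intro h
        obtain ⟨y, hy⟩ := hcam z₀ hz₀ _ h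
        apply isConj_iff.2
        refine ⟨y, ?_⟩
        rw [hy]
        group
    have h1 := card_centralizer_mul_of_class z₀ _ hconj
    have hS : Nat.card ({w | z₀⁻¹ * w ∈ γ} : Set W) = Nat.card γ := by
      refine Nat.card_congr
        { toFun := fun w => ⟨z₀⁻¹ * w.1, w.2⟩
          invFun := fun u => ⟨z₀ * u.1, by
            show z₀⁻¹ * (z₀ * u.1) ∈ γ
            simp⟩
          left_inv := fun w => by
            apply Subtype.ext
            simp
          right_inv := fun u => by
            apply Subtype.ext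
            simp }
    rw [hS] at h1
    -- the kernel
    set I₀ : Subgroup W := Cz ⊓ γ with hI₀
    have h2 : Nat.card (β z₀).ker = Nat.card I₀ := by
      refine Nat.card_congr
        { toFun := fun u => ⟨u.1.1, ?_, u.1.2⟩
          invFun := fun u => ⟨⟨u.1, u.2.2⟩, ?_⟩
          left_inv := fun u => rfl
          right_inv := fun u => rfl }
      · have h3 : ((β z₀ u.1 : A₀) : W) = 1 := congrArg Subtype.val (MonoidHom.mem_ker.1 u.2)
        rw [hβval] at h3
        exact Subgroup.mem_centralizer_singleton_iff.2 (commutatorElement_eq_one_iff_mul_comm.1 h3)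
      · have h3 : (u : W) * z₀ = z₀ * (u : W) := Subgroup.mem_centralizer_singleton_iff.1 u.2.1
        rw [MonoidHom.mem_ker]
        apply Subtype.ext
        show ⁅(u : W), z₀⁆ = 1
        exact commutatorElement_eq_one_iff_mul_comm.2 h3
    have h3 := (β z₀).ker.card_mul_index
    rw [Subgroup.index_ker, h2] at h3
    -- index
    have h4' : p * Nat.card I₀ ≤ Nat.card Cz := by
      obtain ⟨a, ha⟩ := IsPGroup.iff_card.1 (hW.to_subgroup I₀)
      obtain ⟨c, hc⟩ := IsPGroup.iff_card.1 (hW.to_subgroup Cz)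
      have hle' : I₀ ≤ Cz := inf_le_left
      have hz₀C : z₀ ∈ Cz := Subgroup.mem_centralizer_singleton_iff.2 rfl
      have hlt : Nat.card I₀ < Nat.card Cz := by
        refine lt_of_le_of_ne (Subgroup.card_le_of_le hle') ?_
        intro heq
        have := Subgroup.eq_of_le_of_card_ge hle' heq.ge
        rw [← this] at hz₀C
        exact hz₀ hz₀C.2
      rw [ha, hc] at hlt ⊢
      rw [← pow_succ']
      exact Nat.pow_le_pow_right hp.out.pos ((Nat.pow_lt_pow_iff_right hp.out.one_lt).1 hlt)
    -- the index of `T`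
    have h5 : Nat.card A₀ * T.index = Nat.card γ := by
      have h6 := T.card_mul_index
      have h7 : Nat.card T = Nat.card A₀ :=
        Nat.card_congr (Subgroup.subgroupOfEquivOfLe hAγ).toEquiv
      rw [h7] at h6
      exact h6
    have h8 := (β z₀).range.card_mul_index
    rw [hκ] at h8
    set b := Nat.card (β z₀).range with hb
    have hbpos : 0 < b := Nat.card_pos
    have h9 : Nat.card I₀ = p ^ κ * T.index := by
      apply Nat.eq_of_mul_eq_mul_right hbpos
      rw [h3, ← h5, ← h8]
      ring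
    calc p ^ (κ + 1) * T.index * Nat.card γ = p * (p ^ κ * T.index) * Nat.card γ := by ring
      _ = p * Nat.card I₀ * Nat.card γ := by rw [h9]
      _ ≤ Nat.card Cz * Nat.card γ := Nat.mul_le_mul_right _ h4'
      _ = Nat.card W := h1
  exact LCCount.bil_count hW hAp γ T β hβ hC hT κ hB hB1 hcard hγtop

end Core

/-- **Camina `p`-groups with transitive automorphism group on the abelianisation have class at
most two.** -/
theorem class_two {T : Type u} [Group T] [Finite T] {p : ℕ} [hp : Fact p.Prime] (hT : IsPGroup p T)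
    (hcam : ∀ z, z ∉ commutator T → ∀ h ∈ commutator T, ∃ y, y * z * y⁻¹ = z * h)
    (htrans : ∀ z z', z ∉ commutator T → z' ∉ commutator T →
      ∃ α : T ≃* T, z'⁻¹ * α z ∈ commutator T) :
    ⁅commutator T, (⊤ : Subgroup T)⁆ = ⊥ := by
  classical
  set A : Subgroup T := ⁅commutator T, (⊤ : Subgroup T)⁆ with hA
  set M : Subgroup T := ⁅A, (⊤ : Subgroup T)⁆ with hM
  haveI hMn : M.Normal := Subgroup.commutator_normal _ _
  haveI hAn : A.Normal := Subgroup.commutator_normal _ _
  let π : T →* T ⧸ M := QuotientGroup.mk' M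
  have hπ : Function.Surjective π := QuotientGroup.mk'_surjective M
  have hctop : (⊤ : Subgroup T).map π = ⊤ := Subgroup.map_top_of_surjective π hπ
  have hc : commutator (T ⧸ M) = (commutator T).map π := by
    rw [commutator_def, commutator_def, Subgroup.map_commutator, hctop]
  have hc2 : ⁅commutator (T ⧸ M), (⊤ : Subgroup (T ⧸ M))⁆ = A.map π := by
    rw [hc, hA, Subgroup.map_commutator, hctop]
  have hc3 : ⁅⁅commutator (T ⧸ M), (⊤ : Subgroup (T ⧸ M))⁆, (⊤ : Subgroup (T ⧸ M))⁆ = M.map π := by
    have h := Subgroup.map_commutator A (⊤ : Subgroup T) π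
    rw [hctop] at h
    rw [hc2]
    exact h.symm
  have hMbot : M.map π = ⊥ := by
    rw [eq_bot_iff]
    rintro _ ⟨x, hx, rfl⟩
    rw [Subgroup.mem_bot]
    exact (QuotientGroup.eq_one_iff x).2 hx
  have hmemc : ∀ x : T, x ∈ commutator T → π x ∈ commutator (T ⧸ M) := by
    intro x hx
    rw [hc]
    exact ⟨x, hx, rfl⟩
  have hcore := lc_core (W := T ⧸ M) (hT.to_quotient M) (by rw [hc3]; exact hMbot)
    (by
      intro z hz h hh
      obtain ⟨z, rfl⟩ := hπ z
      rw [hc] at hh
      obtain ⟨h, hh, rfl⟩ := hh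
      obtain ⟨y, hy⟩ := hcam z (fun h' => hz (hmemc z h')) h hh
      refine ⟨π y, ?_⟩
      rw [← map_inv, ← map_mul, ← map_mul, ← map_mul, hy])
    (by
      intro z z' hz hz'
      obtain ⟨z, rfl⟩ := hπ z
      obtain ⟨z', rfl⟩ := hπ z'
      obtain ⟨α, hα⟩ := htrans z z' (fun h' => hz (hmemc z h')) (fun h' => hz' (hmemc z' h'))
      have hαM : M.map (α : T →* T) = M := by
        have hchar : M.Characteristic := by
          rw [hM, hA]
          infer_instance
        exact Subgroup.characteristic_iff_map_eq.1 hchar α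
      let ᾱ : (T ⧸ M) ≃* (T ⧸ M) := QuotientGroup.congr M M α hαM
      refine ⟨ᾱ, ?_⟩
      have h1 : ᾱ (π z) = π (α z) := rfl
      rw [h1, ← map_inv, ← map_mul]
      exact hmemc _ hα)
  rw [hc2] at hcore
  have hAM : A ≤ M := by
    intro x hx
    have h1 : π x ∈ A.map π := ⟨x, hx, rfl⟩
    rw [hcore, Subgroup.mem_bot] at h1
    exact (QuotientGroup.eq_one_iff x).1 h1
  -- nilpotency
  have hnil : Group.IsNilpotent T := hT.isNilpotent
  obtain ⟨n, hn⟩ := nilpotent_iff_lowerCentralSeries.1 hnil
  have hall : ∀ m, A ≤ (⊤ : Subgroup T).lowerCentralSeries m := by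
    intro m
    induction m with
    | zero => exact le_top
    | succ m ih =>
      refine hAM.trans ?_
      rw [Subgroup.lowerCentralSeries_succ]
      exact Subgroup.commutator_mono ih le_rfl
  have := hall n
  rw [hn] at this
  exact le_bot_iff.1 this

end Cfsg.Agent.Lib.Camina.LC
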