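import Mathlib
import Cfsg.Agent.Lib.Camina.LC

/-!
# The extraspecial case

`T` a finite `2`-group, `H ⊴ T`, `E = T / H` has centre and derived subgroup both `{1, gb}` of order
`2`, and `g` is conjugate exactly to the elements of `g H`.  Then `g ^ 4 = 1`.
-/

set_option autoImplicit false
set_option linter.style.haveILetI false
set_option linter.unusedSectionVars false
set_option linter.deprecated false

namespace Cfsg.Agent.Lib.Camina.EType

open scoped commutatorElement

universe u

/-- A criterion for index at most two. -/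
theorem index_le_two {E : Type*} [Group E] (C : Subgroup E)
    (h : ∀ a b, a ∉ C → b ∉ C → a⁻¹ * b ∈ C) : C.index ≤ 2 := by
  classical
  let F : E → Bool := fun a => decide (a ∈ C)
  have hF : ∀ a a', F a = F a' ↔ a⁻¹ * a' ∈ C := by
    intro a a'
    by_cases ha : a ∈ C <;> by_cases ha' : a' ∈ C
    · simp [F, ha, ha', C.mul_mem (C.inv_mem ha) ha']
    · have : a⁻¹ * a' ∉ C := by
        intro h1
        apply ha'
        have := C.mul_mem ha h1
        simpa using this
      simp [F, ha, ha', this]
    · have : a⁻¹ * a' ∉ C := by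
        intro h1
        apply ha
        have := C.mul_mem ha' (C.inv_mem h1)
        simpa using this
      simp [F, ha, ha', this]
    · simp [F, ha, ha', h a a' ha ha']
  have h2 : C.index ≤ Nat.card Bool := by
    let e : E ⧸ C → Bool := Quotient.lift F (fun a a' h => (hF a a').mpr (QuotientGroup.leftRel_apply.mp h))
    have he : Function.Injective e := by
      intro a b
      induction a using QuotientGroup.induction_on with
      | H a =>
      induction b using QuotientGroup.induction_on with
      | H b =>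
      intro h
      exact QuotientGroup.eq.mpr ((hF a b).mp h)
    exact Nat.card_le_card_of_injective e he
  simpa using h2

section E

variable {E : Type*} [Group E] [Finite E] (gb : E)
  (e1 : gb ≠ 1) (e2 : gb * gb = 1) (e3 : ∀ y, y * gb = gb * y)
  (e4 : ∀ x y : E, ⁅x, y⁆ = 1 ∨ ⁅x, y⁆ = gb)
  (e5 : ∀ x, (∀ y, x * y = y * x) → x = 1 ∨ x = gb)

include e2 e3 e4 e5 in
/-- Squares lie in the centre. -/
theorem sq_eq (x : E) : x * x = 1 ∨ x * x = gb := by
  apply e5
  intro y
  have hcen : ∀ c : E, (c = 1 ∨ c = gb) → ∀ z, c * z = z * c := by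
    rintro c (rfl | rfl) z
    · simp
    · exact (e3 z).symm
  have h1 : ⁅x * x, y⁆ = 1 := by
    have h2 : ⁅x * x, y⁆ = x * ⁅x, y⁆ * x⁻¹ * ⁅x, y⁆ := by
      simp only [commutatorElement_def]; group
    rw [h2]
    have h3 := hcen _ (e4 x y) x
    rw [← h3]
    simp only [mul_inv_cancel_right]
    rcases e4 x y with h | h <;> rw [h]
    · simp
    · exact e2
  exact commutatorElement_eq_one_iff_mul_comm.1 h1

/-- Fibres of the commutator map. -/
theorem mem_centralizer_of_not (e4 : ∀ x y : E, ⁅x, y⁆ = 1 ∨ ⁅x, y⁆ = gb) (y a b : E)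
    (ha : a ∉ Subgroup.centralizer ({y} : Set E))
    (hb : b ∉ Subgroup.centralizer ({y} : Set E)) :
    a⁻¹ * b ∈ Subgroup.centralizer ({y} : Set E) := by
  have key : ∀ c, c ∉ Subgroup.centralizer ({y} : Set E) → ⁅c, y⁆ = gb := by
    intro c hc
    refine (e4 c y).resolve_left ?_
    intro h
    apply hc
    rw [Subgroup.mem_centralizer_singleton_iff]
    exact commutatorElement_eq_one_iff_mul_comm.1 h
  have h1 : ⁅a, y⁆ = ⁅b, y⁆ := (key a ha).trans (key b hb).symm
  rw [Subgroup.mem_centralizer_singleton_iff]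
  simp only [commutatorElement_def] at h1
  have h2 : a * y * a⁻¹ = b * y * b⁻¹ := mul_right_cancel h1
  calc a⁻¹ * b * y = a⁻¹ * (b * y * b⁻¹) * b := by group
    _ = a⁻¹ * (a * y * a⁻¹) * b := by rw [h2]
    _ = y * (a⁻¹ * b) := by group

include e2 e3 e4 e5 in
/-- **Main estimate**: a noncentral involution without a root in its centraliser forces
`|E| ≤ 8`. -/
theorem card_le_eight (x : E) (hx1 : x ≠ 1) (hxg : x ≠ gb)
    (hroot : ∀ v, v * x = x * v → v * v ≠ gb) : Nat.card E ≤ 8 := by
  classical
  -- a non-commuting element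
  obtain ⟨y, hy⟩ : ∃ y, x * y ≠ y * x := by
    by_contra h
    push Not at h
    rcases e5 x h with h | h
    · exact hx1 h
    · exact hxg h
  set C : Subgroup E := Subgroup.centralizer ({x} : Set E) with hC
  set Cy : Subgroup E := Subgroup.centralizer ({y} : Set E) with hCy
  have hmemC : ∀ w, w ∈ C ↔ w * x = x * w := fun w => Subgroup.mem_centralizer_singleton_iff
  have hmemCy : ∀ w, w ∈ Cy ↔ w * y = y * w := fun w => Subgroup.mem_centralizer_singleton_iff
  have hyC : y ∉ C := fun h => hy ((hmemC y).1 h).symm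
  have hCidx : C.index ≤ 2 := index_le_two C (fun a b ha hb => mem_centralizer_of_not gb e4 x a b ha hb)
  -- `C` has exponent two
  have hexp : ∀ w ∈ C, w * w = 1 := by
    intro w hw
    exact (sq_eq gb e2 e3 e4 e5 w).resolve_right (hroot w ((hmemC w).1 hw))
  have hCab : ∀ a ∈ C, ∀ b ∈ C, a * b = b * a := by
    intro a ha b hb
    have h1 := hexp _ (C.mul_mem ha hb)
    have h2 := hexp a ha
    have h3 := hexp b hb
    calc a * b = a * (a * b * (a * b)) * b := by rw [h1]; simp
      _ = (a * a) * b * a * (b * b) := by group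
      _ = b * a := by rw [h2, h3]; simp
  -- the relative index
  have hrel : (Cy.subgroupOf C).index ≤ 2 := by
    apply index_le_two
    intro a b ha hb
    rw [Subgroup.mem_subgroupOf] at ha hb ⊢
    exact mem_centralizer_of_not gb e4 y a b ha hb
  -- the intersection is central
  have hcen : ∀ w, w ∈ C → w ∈ Cy → w = 1 ∨ w = gb := by
    intro w hw hwy
    apply e5
    intro z
    by_cases hz : z ∈ C
    · exact hCab w hw z hz
    · have h1 : y⁻¹ * z ∈ C := mem_centralizer_of_not gb e4 x y z hyC hz
      have h2 := hCab w hw _ h1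
      have h3 := (hmemCy w).1 hwy
      calc w * z = w * y * (y⁻¹ * z) := by group
        _ = y * (w * (y⁻¹ * z)) := by rw [h3]; group
        _ = y * ((y⁻¹ * z) * w) := by rw [h2]
        _ = z * w := by group
  have hcard : Nat.card (Cy.subgroupOf C) ≤ 2 := by
    let f : Cy.subgroupOf C → Bool := fun w => decide (((w : C) : E) = 1)
    have hf : Function.Injective f := by
      intro a b hab
      have ha := hcen _ (a : C).2 (Subgroup.mem_subgroupOf.1 a.2)
      have hb := hcen _ (b : C).2 (Subgroup.mem_subgroupOf.1 b.2)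
      apply Subtype.ext
      apply Subtype.ext
      have hab' : decide (((a : C) : E) = 1) = decide (((b : C) : E) = 1) := hab
      rw [decide_eq_decide] at hab'
      by_cases h1 : ((a : C) : E) = 1
      · rw [h1, hab'.1 h1]
      · have h2 : ¬ ((b : C) : E) = 1 := fun h => h1 (hab'.2 h)
        rw [ha.resolve_left h1, hb.resolve_left h2]
    have := Nat.card_le_card_of_injective f hf
    simpa using this
  have h1 := (Cy.subgroupOf C).card_mul_index
  have h2 := C.card_mul_index
  rw [← h2, ← h1]
  calc Nat.card (Cy.subgroupOf C) * (Cy.subgroupOf C).index * C.index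
      ≤ 2 * 2 * 2 := Nat.mul_le_mul (Nat.mul_le_mul hcard hrel) hCidx
    _ = 8 := rfl

include e1 e2 e3 e4 e5 in
/-- **Roots generate.** -/
theorem roots_generate (hne : ∃ a b : E, a * b ≠ b * a) (h8 : 8 < Nat.card E) :
    Subgroup.closure {v : E | v * v = gb} = ⊤ := by
  classical
  obtain ⟨a, b, hab⟩ := hne
  have hex : ∃ v : E, v * v = gb := by
    by_contra h
    push Not at h
    have hexp : ∀ w : E, w * w = 1 := fun w => (sq_eq gb e2 e3 e4 e5 w).resolve_right (h w)
    apply hab
    have h1 := hexp (a * b)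
    have h2 := hexp a
    have h3 := hexp b
    calc a * b = a * (a * b * (a * b)) * b := by rw [h1]; simp
      _ = (a * a) * b * a * (b * b) := by group
      _ = b * a := by rw [h2, h3]; simp
  obtain ⟨v₀, hv₀⟩ := hex
  rw [eq_top_iff]
  intro x _
  have hmem : ∀ v : E, v * v = gb → v ∈ Subgroup.closure {v : E | v * v = gb} :=
    fun v hv => Subgroup.subset_closure hv
  by_cases hx : x * x = gb
  · exact hmem x hx
  by_cases hx1 : x = 1
  · rw [hx1]; exact Subgroup.one_mem _
  by_cases hxg : x = gb
  · have h1 := Subgroup.mul_mem _ (hmem _ hv₀) (hmem _ hv₀)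
    rw [hv₀] at h1
    rw [hxg]
    exact h1
  -- an involution
  have hx2 : x * x = 1 := (sq_eq gb e2 e3 e4 e5 x).resolve_right hx
  by_cases hroot : ∀ v, v * x = x * v → v * v ≠ gb
  · have := card_le_eight gb e2 e3 e4 e5 x hx1 hxg hroot
    omega
  push Not at hroot
  obtain ⟨v, hvx, hv⟩ := hroot
  have h1 : (x * v) * (x * v) = gb := by
    calc (x * v) * (x * v) = x * (v * x) * v := by group
      _ = x * (x * v) * v := by rw [hvx]
      _ = (x * x) * (v * v) := by group
      _ = gb := by rw [hx2, hv, one_mul]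
  have h2 : x = (x * v) * v⁻¹ := by group
  rw [h2]
  exact Subgroup.mul_mem _ (hmem _ h1) (Subgroup.inv_mem _ (hmem _ hv))

end E

/-- **Lemma E.** -/
theorem pow_four_eq_one {T : Type u} [Group T] [Finite T] (hT : IsPGroup 2 T) (H : Subgroup T)
    [hHn : H.Normal] (g : T) (hgH : g ∉ H) (hg2 : g * g ∈ H)
    (hconj : ∀ h ∈ H, IsConj g (g * h))
    (hconj' : ∀ y, g⁻¹ * (y * g * y⁻¹) ∈ H)
    (hcomm : ∀ x y : T, ⁅x, y⁆ ∈ H ∨ g⁻¹ * ⁅x, y⁆ ∈ H)
    (hZ : ∀ x, (∀ y, ⁅x, y⁆ ∈ H) → x ∈ H ∨ g⁻¹ * x ∈ H)
    (hne : ∃ x y : T, ⁅x, y⁆ ∉ H) : g ^ 4 = 1 := by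
  classical
  haveI : Fact (Nat.Prime 2) := ⟨Nat.prime_two⟩
  -- the quotient
  set π : T →* T ⧸ H := QuotientGroup.mk' H with hπ
  have hπs : Function.Surjective π := QuotientGroup.mk'_surjective H
  have hker : ∀ x, π x = 1 ↔ x ∈ H := fun x => QuotientGroup.eq_one_iff x
  have heq : ∀ x y, π x = π y ↔ x⁻¹ * y ∈ H := fun x y => QuotientGroup.eq
  set gb : T ⧸ H := π g with hgb
  have e1 : gb ≠ 1 := fun h => hgH ((hker g).1 h)
  have e2 : gb * gb = 1 := by
    rw [hgb, ← map_mul]
    exact (hker _).2 hg2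
  have e3 : ∀ y, y * gb = gb * y := by
    intro y
    obtain ⟨y, rfl⟩ := hπs y
    have h1 : π (y * g * y⁻¹) = π g := ((heq _ _).2 (by
      have := H.inv_mem (hconj' y)
      simpa using this))
    have h2 : π y * π g * (π y)⁻¹ = π g := by
      simpa [map_mul, map_inv] using h1
    calc π y * gb = π y * π g * (π y)⁻¹ * π y := by simp [hgb]
      _ = gb * π y := by rw [h2]
  have e4 : ∀ x y : T ⧸ H, ⁅x, y⁆ = 1 ∨ ⁅x, y⁆ = gb := by
    intro x y
    obtain ⟨x, rfl⟩ := hπs x
    obtain ⟨y, rfl⟩ := hπs y
    rw [← map_commutatorElement]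
    rcases hcomm x y with h | h
    · exact Or.inl ((hker _).2 h)
    · exact Or.inr ((heq _ _).2 h).symm
  have e5 : ∀ x : T ⧸ H, (∀ y, x * y = y * x) → x = 1 ∨ x = gb := by
    intro x hx
    obtain ⟨x, rfl⟩ := hπs x
    have h1 : ∀ y, ⁅x, y⁆ ∈ H := by
      intro y
      rw [← hker, map_commutatorElement]
      exact commutatorElement_eq_one_iff_mul_comm.2 (hx (π y))
    rcases hZ x h1 with h | h
    · exact Or.inl ((hker _).2 h)
    · exact Or.inr ((heq _ _).2 h).symm
  have hneE : ∃ a b : T ⧸ H, a * b ≠ b * a := by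
    obtain ⟨x, y, hxy⟩ := hne
    refine ⟨π x, π y, fun h => hxy ?_⟩
    rw [← hker, map_commutatorElement]
    exact commutatorElement_eq_one_iff_mul_comm.2 h
  -- the class of `g`
  have hclass : ∀ w, IsConj g w ↔ w ∈ ({w | g⁻¹ * w ∈ H} : Set T) := by
    intro w
    constructor
    · intro h
      obtain ⟨c, rfl⟩ := isConj_iff.1 h
      exact hconj' c
    · intro h
      have := hconj _ h
      simpa using this
  have hcardC : Nat.card (Subgroup.centralizer ({g} : Set T)) * Nat.card H = Nat.card T := by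
    have h1 := LC.card_centralizer_mul_of_class g _ hclass
    have hS : Nat.card ({w | g⁻¹ * w ∈ H} : Set T) = Nat.card H := by
      refine Nat.card_congr
        { toFun := fun w => ⟨g⁻¹ * w.1, w.2⟩
          invFun := fun u => ⟨g * u.1, by
            show g⁻¹ * (g * u.1) ∈ H
            simp⟩
          left_inv := fun w => by
            apply Subtype.ext
            simp
          right_inv := fun u => by
            apply Subtype.ext
            simp }
    rwa [hS] at h1
  have hcardE : Nat.card T = Nat.card H * Nat.card (T ⧸ H) := by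
    have := H.card_mul_index
    rw [Subgroup.index] at this
    exact this.symm
  have hCeq : Nat.card (Subgroup.centralizer ({g} : Set T)) = Nat.card (T ⧸ H) := by
    have h1 : 0 < Nat.card H := Nat.card_pos
    apply Nat.eq_of_mul_eq_mul_right h1
    rw [hcardC, hcardE, mul_comm]
  -- a root
  by_cases h8 : Nat.card (T ⧸ H) ≤ 8
  · -- the small case
    obtain ⟨a, b, hab⟩ := hneE
    have hex : ∃ v : T ⧸ H, v * v = gb := by
      by_contra h
      push Not at h
      have hexp : ∀ w : T ⧸ H, w * w = 1 := fun w => (sq_eq gb e2 e3 e4 e5 w).resolve_right (h w)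
      apply hab
      have h1 := hexp (a * b)
      have h2 := hexp a
      have h3 := hexp b
      calc a * b = a * (a * b * (a * b)) * b := by rw [h1]; simp
        _ = (a * a) * b * a * (b * b) := by group
        _ = b * a := by rw [h2, h3]; simp
    obtain ⟨v, hv⟩ := hex
    obtain ⟨r, rfl⟩ := hπs v
    -- `r ^ 2` is conjugate to `g`
    have hrr : g⁻¹ * (r * r) ∈ H := by
      have : π g = π (r * r) := by rw [map_mul]; exact hv.symm
      exact (heq _ _).1 this
    have hrc : IsConj g (r * r) := (hclass _).2 hrr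
    -- the order of the centraliser
    have hc2 : Nat.card (Subgroup.centralizer ({r * r} : Set T)) = Nat.card (T ⧸ H) := by
      have h1 := LC.card_centralizer_mul_of_class (r * r) ({w | g⁻¹ * w ∈ H} : Set T) (fun w => by
        rw [← hclass]
        exact ⟨fun h => hrc.trans h, fun h => hrc.symm.trans h⟩)
      have h2 := LC.card_centralizer_mul_of_class g _ hclass
      have h3 : 0 < Nat.card ({w | g⁻¹ * w ∈ H} : Set T) := by
        haveI : Nonempty ({w | g⁻¹ * w ∈ H} : Set T) := ⟨⟨g, by simp [H.one_mem]⟩⟩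
        exact Nat.card_pos
      rw [← hCeq]
      exact Nat.eq_of_mul_eq_mul_right h3 (h1.trans h2.symm)
    have hrmem : r ∈ Subgroup.centralizer ({r * r} : Set T) :=
      Subgroup.mem_centralizer_singleton_iff.2 (by group)
    have hrpow : r ^ Nat.card (T ⧸ H) = 1 := by
      rw [← hc2]
      have := pow_card_eq_one' (G := Subgroup.centralizer ({r * r} : Set T)) (x := ⟨r, hrmem⟩)
      exact congrArg Subtype.val this
    obtain ⟨n, hn⟩ := IsPGroup.iff_card.1 (hT.to_quotient H)
    have hn3 : n ≤ 3 := by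
      rw [hn] at h8
      by_contra hlt
      push Not at hlt
      have : 2 ^ 4 ≤ 2 ^ n := Nat.pow_le_pow_right (by norm_num) hlt
      omega
    have hr8 : r ^ 8 = 1 := by
      have h1 : r ^ (2 ^ n) = 1 := by rw [← hn]; exact hrpow
      have h2 : (2 ^ n) ∣ 8 := by
        have : (2 : ℕ) ^ n ∣ 2 ^ 3 := pow_dvd_pow 2 hn3
        simpa using this
      obtain ⟨c, hc⟩ := h2
      rw [hc, pow_mul, h1, one_pow]
    have hg4 : IsConj (g ^ 4) ((r * r) ^ 4) := hrc.pow 4
    have h44 : (r * r) ^ 4 = 1 := by
      have : (r * r) ^ 4 = r ^ 8 := by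
        rw [← pow_two, ← pow_mul]
      rw [this, hr8]
    rw [h44] at hg4
    exact isConj_one_right.1 hg4.symm
  · -- the large case: `H = 1`
    push Not at h8
    have hgen := roots_generate gb e1 e2 e3 e4 e5 hneE h8
    set M : Subgroup T := ⁅H, (⊤ : Subgroup T)⁆ with hM
    haveI hMn : M.Normal := Subgroup.commutator_normal _ _
    have hMmem : ∀ h ∈ H, ∀ s : T, ⁅h, s⁆ ∈ M := fun h hh s =>
      Subgroup.commutator_mem_commutator hh (Subgroup.mem_top s)
    let C₀ : Subgroup T :=
      { carrier := {s | ⁅s, g⁆ ∈ M}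
        one_mem' := by
          show ⁅(1 : T), g⁆ ∈ M
          simp [M.one_mem]
        mul_mem' := by
          intro s t hs ht
          have hs' : ⁅s, g⁆ ∈ M := hs
          have ht' : ⁅t, g⁆ ∈ M := ht
          show ⁅s * t, g⁆ ∈ M
          have h1 : ⁅s * t, g⁆ = s * ⁅t, g⁆ * s⁻¹ * ⁅s, g⁆ := by
            simp only [commutatorElement_def]; group
          rw [h1]
          exact M.mul_mem (hMn.conj_mem _ ht' s) hs'
        inv_mem' := by
          intro s hs
          have hs' : ⁅s, g⁆ ∈ M := hs
          show ⁅s⁻¹, g⁆ ∈ M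
          have h1 : ⁅s⁻¹, g⁆ = s⁻¹ * (⁅s, g⁆)⁻¹ * s⁻¹⁻¹ := by
            simp only [commutatorElement_def]; group
          rw [h1]
          exact hMn.conj_mem _ (M.inv_mem hs') _ }
    have hC₀mem : ∀ s, s ∈ C₀ ↔ ⁅s, g⁆ ∈ M := fun s => Iff.rfl
    have hHC : ∀ s ∈ H, s ∈ C₀ := fun s hs => hMmem s hs g
    have hroot : ∀ r : T, π r * π r = gb → r ∈ C₀ := by
      intro r hr
      have hrr : g⁻¹ * (r * r) ∈ H := by
        have : π g = π (r * r) := by rw [map_mul]; exact hr.symm
        exact (heq _ _).1 this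
      set h := g⁻¹ * (r * r) with hh
      have hgh : r * r = g * h := by rw [hh]; group
      have hc : r * (g * h) = (g * h) * r := by
        rw [← hgh]; group
      have h1 : ⁅r, g⁆ = g * ⁅h, r⁆ * g⁻¹ := by
        simp only [commutatorElement_def]
        calc r * g * r⁻¹ * g⁻¹ = (r * (g * h)) * h⁻¹ * r⁻¹ * g⁻¹ := by group
          _ = ((g * h) * r) * h⁻¹ * r⁻¹ * g⁻¹ := by rw [hc]
          _ = g * (h * r * h⁻¹ * r⁻¹) * g⁻¹ := by group
      rw [hC₀mem, h1]
      exact hMn.conj_mem _ (hMmem h hrr r) g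
    have hC₀top : ∀ x, x ∈ C₀ := by
      intro x
      have hle : Subgroup.closure {v : T ⧸ H | v * v = gb} ≤ C₀.map π := by
        rw [Subgroup.closure_le]
        intro v hv
        obtain ⟨r, rfl⟩ := hπs v
        exact ⟨r, hroot r hv, rfl⟩
      rw [hgen] at hle
      obtain ⟨s, hs, hsx⟩ := hle (Subgroup.mem_top (π x))
      have h1 : s⁻¹ * x ∈ H := (heq _ _).1 hsx
      have h2 := C₀.mul_mem hs (hHC _ h1)
      simpa using h2
    have hHM : H ≤ M := by
      intro h hh
      obtain ⟨y, hy⟩ := isConj_iff.1 (hconj h hh)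
      have h1 := hC₀top y
      rw [hC₀mem] at h1
      have h2 : ⁅y, g⁆ = g * h * g⁻¹ := by
        rw [commutatorElement_def, hy]
      rw [h2] at h1
      have h3 := hMn.conj_mem _ h1 g⁻¹
      have h4 : g⁻¹ * (g * h * g⁻¹) * g⁻¹⁻¹ = h := by group
      rwa [h4] at h3
    have hnil : Group.IsNilpotent T := hT.isNilpotent
    obtain ⟨n, hn⟩ := nilpotent_iff_lowerCentralSeries.1 hnil
    have hall : ∀ m, H ≤ (⊤ : Subgroup T).lowerCentralSeries m := by
      intro m
      induction m with
      | zero => exact le_top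
      | succ m ih =>
        refine hHM.trans ?_
        rw [Subgroup.lowerCentralSeries_succ]
        exact Subgroup.commutator_mono ih le_rfl
    have hbot : H = ⊥ := by
      have := hall n
      rw [hn] at this
      exact le_bot_iff.1 this
    rw [hbot, Subgroup.mem_bot] at hg2
    calc g ^ 4 = (g * g) * (g * g) := by simp [pow_succ, mul_assoc]
      _ = 1 := by rw [hg2, one_mul]

end Cfsg.Agent.Lib.Camina.EType
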