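import Mathlib
import Cfsg.Agent.S0031
import Cfsg.Agent.Lib.Coprime.FPF4

/-!
# Fixed point free automorphisms with `σ ^ 4 = 1`

A finite group with a fixed point free automorphism `σ` such that `σ ^ 4 = 1` is solvable
(Gorenstein-Herstein).  The proof here: the involution `τ = σ ^ 2` gives `V = A I`, with `A` the
fixed points of `τ` (abelian, inverted by `σ`) and `I` the elements inverted by `τ`.  The norm
identity shows `x` and `σ x` commute for `x ∈ I`; hence the `q`-elements of `I` lie in the unique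
`σ`-invariant Sylow `q`-subgroup.  Counting shows `x ↦ (x_q)_q` is a bijection from `I` to the
product of the `I ∩ Q_q`, so that these sets commute, and `⟨I⟩` is a normal nilpotent subgroup
with abelian quotient.
-/

set_option autoImplicit false
set_option linter.style.haveILetI false
set_option linter.unusedSectionVars false
set_option linter.deprecated false

namespace Cfsg.Agent.Lib.Camina.GH4

universe u

variable {V : Type u} [Group V] [Finite V]

/-- Restriction of an automorphism to a forward invariant subgroup of a finite group. -/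
noncomputable def resEquiv (σ : V ≃* V) (U : Subgroup V) (hU : ∀ x ∈ U, σ x ∈ U) : U ≃* U :=
  MulEquiv.ofBijective
    (MonoidHom.mk' (fun a : U => (⟨σ a, hU a a.2⟩ : U)) (by
      intro a b; apply Subtype.ext; simp))
    (Finite.injective_iff_bijective.1 (by
      intro a b hab
      have h : σ (a : V) = σ (b : V) := congrArg Subtype.val hab
      exact Subtype.ext (σ.injective h)))

@[simp] theorem resEquiv_coe (σ : V ≃* V) (U : Subgroup V) (hU : ∀ x ∈ U, σ x ∈ U) (a : U) :
    ((resEquiv σ U hU a : U) : V) = σ a := rfl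

/-- Forward invariance implies invariance of the image. -/
theorem exists_preimage (σ : V ≃* V) (U : Subgroup V) (hU : ∀ x ∈ U, σ x ∈ U) {x : V} (hx : x ∈ U) :
    ∃ y ∈ U, σ y = x := by
  obtain ⟨y, hy⟩ := (resEquiv σ U hU).surjective ⟨x, hx⟩
  exact ⟨y, y.2, congrArg Subtype.val hy⟩

theorem map_eq_of_forward (σ : V ≃* V) (U : Subgroup V) (hU : ∀ x ∈ U, σ x ∈ U) :
    U.map (σ : V →* V) = U := by
  apply le_antisymm
  · rintro _ ⟨x, hx, rfl⟩
    exact hU x hx
  · intro x hx
    obtain ⟨y, hy, rfl⟩ := exists_preimage σ U hU hx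
    exact ⟨y, hy, rfl⟩

/-- In a finite group, forward normalising implies normalising. -/
theorem mem_normalizer_of_forall {P : Subgroup V} {g : V} (h : ∀ x ∈ P, g * x * g⁻¹ ∈ P) :
    g ∈ Subgroup.normalizer (P : Set V) := by
  rw [Subgroup.mem_normalizer_iff]
  intro x
  refine ⟨h x, fun hx => ?_⟩
  let f : P → P := fun a => ⟨g * a * g⁻¹, h a a.2⟩
  have hf : Function.Injective f := by
    intro a b hab
    have h1 : g * (a : V) * g⁻¹ = g * (b : V) * g⁻¹ := congrArg Subtype.val hab
    exact Subtype.ext (by simpa using h1)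
  obtain ⟨y, hy⟩ := Finite.surjective_of_injective hf ⟨_, hx⟩
  have h1 : g * (y : V) * g⁻¹ = g * x * g⁻¹ := congrArg Subtype.val hy
  have h2 : (y : V) = x := by simpa using h1
  exact h2 ▸ y.2

section FPF

variable (σ : V ≃* V) (hσ : ∀ x, σ x = x → x = 1)
include hσ

/-- Every element of an invariant subgroup is `y⁻¹ σ y` with `y` in the subgroup. -/
theorem exists_inv_mul_eq (U : Subgroup V) (hU : ∀ x ∈ U, σ x ∈ U) {x : V} (hx : x ∈ U) :
    ∃ y ∈ U, y⁻¹ * σ y = x := by
  obtain ⟨y, hy⟩ := Cfsg.Agent.Lib.Coprime.FPF4.exists_inv_mul_eq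
    ((resEquiv σ U hU).toMonoidHom) (by
      intro a ha
      have h1 : σ (a : V) = a := congrArg Subtype.val ha
      exact Subtype.ext (hσ _ h1)) (⟨x, hx⟩ : U)
  refine ⟨y, y.2, ?_⟩
  exact congrArg Subtype.val hy

/-- Normalizers of invariant subgroups are invariant. -/
theorem normalizer_invariant {P : Subgroup V} (hP : ∀ x ∈ P, σ x ∈ P) :
    ∀ n ∈ Subgroup.normalizer (P : Set V), σ n ∈ Subgroup.normalizer (P : Set V) := by
  intro n hn
  apply mem_normalizer_of_forall
  intro x hx
  obtain ⟨y, hy, rfl⟩ := exists_preimage σ P hP hx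
  have h1 : n * y * n⁻¹ ∈ P := (Subgroup.mem_normalizer_iff.1 hn y).1 hy
  have h2 := hP _ h1
  simpa using h2

/-- The invariant Sylow subgroup is unique. -/
theorem sylow_unique {q : ℕ} [Fact q.Prime] (P Q : Sylow q V)
    (hP : ∀ x ∈ (P : Subgroup V), σ x ∈ (P : Subgroup V))
    (hQ : ∀ x ∈ (Q : Subgroup V), σ x ∈ (Q : Subgroup V)) : P = Q := by
  obtain ⟨w, hw⟩ := MulAction.exists_smul_eq V P Q
  have hmemQ : ∀ x, x ∈ (P : Subgroup V) → w * x * w⁻¹ ∈ (Q : Subgroup V) := by
    intro x hx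
    rw [← hw, Sylow.coe_subgroup_smul]
    exact ⟨x, hx, rfl⟩
  have hmemQ' : ∀ x, x ∈ (Q : Subgroup V) → w⁻¹ * x * w ∈ (P : Subgroup V) := by
    intro x hx
    rw [← hw, Sylow.coe_subgroup_smul] at hx
    obtain ⟨y, hy, rfl⟩ := hx
    show w⁻¹ * (w * y * w⁻¹) * w ∈ (P : Subgroup V)
    have : w⁻¹ * (w * y * w⁻¹) * w = y := by group
    rw [this]; exact hy
  have hy : w⁻¹ * σ w ∈ Subgroup.normalizer (P : Set V) := by
    apply mem_normalizer_of_forall
    intro x hx
    obtain ⟨x', hx', rfl⟩ := exists_preimage σ P hP hx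
    have h1 := hQ _ (hmemQ x' hx')
    have h2 := hmemQ' _ h1
    have : w⁻¹ * σ w * σ x' * (w⁻¹ * σ w)⁻¹ = w⁻¹ * σ (w * x' * w⁻¹) * w := by
      simp only [map_mul, map_inv]; group
    rw [this]; exact h2
  obtain ⟨z, hz, hze⟩ := exists_inv_mul_eq σ hσ _ (normalizer_invariant σ hσ hP) hy
  have hfix : σ (z * w⁻¹) = z * w⁻¹ := by
    have h3 : σ w = w * z⁻¹ * σ z := by
      have : w⁻¹ * σ w = z⁻¹ * σ z := hze.symm
      calc σ w = w * (w⁻¹ * σ w) := by group
        _ = w * (z⁻¹ * σ z) := by rw [this]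
        _ = _ := by group
    rw [map_mul, map_inv, h3]
    group
  have hzw : z = w := mul_inv_eq_one.1 (hσ _ hfix)
  subst hzw
  apply Sylow.ext
  rw [← hw, Sylow.coe_subgroup_smul]
  ext x
  rw [Subgroup.mem_pointwise_smul_iff_inv_smul_mem]
  have hz' := Subgroup.mem_normalizer_iff.1 (Subgroup.inv_mem _ hz) x
  simp only [inv_inv] at hz'
  rw [hz']
  simp [MulAut.smul_def]

/-- Every invariant `q`-subgroup lies in an invariant Sylow `q`-subgroup. -/
theorem exists_invariant_sylow_ge {q : ℕ} [Fact q.Prime] (U : Subgroup V)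
    (hU : ∀ x ∈ U, σ x ∈ U) (hUq : IsPGroup q U) :
    ∃ P : Sylow q V, U ≤ (P : Subgroup V) ∧ ∀ x ∈ (P : Subgroup V), σ x ∈ (P : Subgroup V) := by
  classical
  let S : Set (Subgroup V) := {W | U ≤ W ∧ IsPGroup q W ∧ ∀ x ∈ W, σ x ∈ W}
  have hSne : S.Nonempty := ⟨U, le_rfl, hUq, hU⟩
  obtain ⟨W, hWS, hWmax⟩ := S.toFinite.exists_maximal hSne
  obtain ⟨hUW, hWq, hWσ⟩ := hWS
  -- `W` has the order of a Sylow subgroup
  obtain ⟨n, hn⟩ := IsPGroup.iff_card.1 hWq
  have hcard : Nat.card W = q ^ (Nat.card V).factorization q := by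
    rw [hn]
    congr 1
    have hpos : Nat.card V ≠ 0 := Nat.card_pos.ne'
    have hq : q.Prime := Fact.out
    have hle : n ≤ (Nat.card V).factorization q := by
      have : q ^ n ∣ Nat.card V := hn ▸ Subgroup.card_subgroup_dvd_card W
      exact (hq.pow_dvd_iff_le_factorization hpos).1 this
    refine le_antisymm hle ?_
    by_contra hlt
    push Not at hlt
    have hd : q ^ (n + 1) ∣ Nat.card V := (hq.pow_dvd_iff_le_factorization hpos).2 hlt
    have hnorm := Sylow.prime_pow_dvd_card_normalizer hd hn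
    set M : Subgroup V := Subgroup.normalizer (W : Set V) with hM
    have hMσ : ∀ x ∈ M, σ x ∈ M := normalizer_invariant σ hσ hWσ
    obtain ⟨R, hR⟩ := Cfsg.Agent.S0031.result (resEquiv σ M hMσ) (by
      intro a ha
      have h1 : σ (a : V) = a := congrArg Subtype.val ha
      exact Subtype.ext (hσ _ h1)) q
    set R' : Subgroup V := (R : Subgroup M).map M.subtype with hR'
    have hR'le : R' ≤ M := by
      rintro _ ⟨x, -, rfl⟩
      exact x.2
    have hR'card : Nat.card R' = Nat.card (R : Subgroup M) :=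
      Subgroup.card_map_of_injective (Subgroup.subtype_injective _)
    have hR'q : IsPGroup q R' := (R.isPGroup').map M.subtype
    have hdvd : q ^ (n + 1) ∣ Nat.card R' := by
      rw [hR'card]
      exact Sylow.pow_dvd_card_of_pow_dvd_card R hnorm
    have hR'σ : ∀ x ∈ R', σ x ∈ R' := by
      rintro _ ⟨x, hx, rfl⟩
      have h1 : resEquiv σ M hMσ x ∈ (R : Subgroup M) := by
        have h2 : (resEquiv σ M hMσ : M →* M) x ∈ (R : Subgroup M).map (resEquiv σ M hMσ : M →* M) :=
          ⟨x, hx, rfl⟩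
        rw [hR] at h2
        exact h2
      exact ⟨_, h1, rfl⟩
    have hsup : IsPGroup q ↥(W ⊔ R') := IsPGroup.to_sup_of_normal_left' hWq hR'q hR'le
    have hsupσ : ∀ x ∈ W ⊔ R', σ x ∈ W ⊔ R' := by
      have : W ⊔ R' ≤ (W ⊔ R').comap (σ : V →* V) := by
        apply sup_le
        · intro x hx
          exact (le_sup_left : W ≤ W ⊔ R') (hWσ x hx)
        · intro x hx
          exact (le_sup_right : R' ≤ W ⊔ R') (hR'σ x hx)
      exact fun x hx => this hx
    have hle2 : W ⊔ R' ≤ W := hWmax ⟨hUW.trans le_sup_left, hsup, hsupσ⟩ le_sup_left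
    have hR'W : R' ≤ W := le_sup_right.trans hle2
    have hc : Nat.card R' ≤ Nat.card W := Subgroup.card_le_of_le hR'W
    have hc2 : q ^ (n + 1) ≤ Nat.card R' := Nat.le_of_dvd Nat.card_pos hdvd
    rw [hn] at hc
    have hc3 : q ^ (n + 1) ≤ q ^ n := hc2.trans hc
    have hc4 := Nat.pow_lt_pow_right hq.one_lt (Nat.lt_succ_self n)
    exact absurd hc3 (not_le.2 hc4)
  refine ⟨Sylow.ofCard W hcard, ?_, ?_⟩
  · rw [Sylow.coe_ofCard]; exact hUW
  · rw [Sylow.coe_ofCard]; exact hWσ

end FPF

section Four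

variable (σ : V ≃* V)

/-- The fixed points of `σ ^ 2`. -/
def fixA : Subgroup V where
  carrier := {x | σ (σ x) = x}
  mul_mem' := by
    intro a b ha hb
    simp only [Set.mem_setOf_eq] at *
    simp [ha, hb]
  one_mem' := by simp
  inv_mem' := by
    intro a ha
    simp only [Set.mem_setOf_eq] at *
    simp [ha]

theorem mem_fixA {x : V} : x ∈ fixA σ ↔ σ (σ x) = x := Iff.rfl

variable (hσ : ∀ x, σ x = x → x = 1) (h4 : ∀ x, σ (σ (σ (σ x))) = x)

include hσ h4 in
/-- The group has odd order. -/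
theorem odd_card : Odd (Nat.card V) := by
  classical
  cases nonempty_fintype V
  let F : Function.End V := (σ : V → V)
  have hf : F ^ 2 ^ 2 = 1 := by
    have h2 : F ^ 2 ^ 2 = F * F * F * F := by
      norm_num [pow_succ]
    rw [h2]
    funext x
    show σ (σ (σ (σ x))) = x
    exact h4 x
  haveI : Fact (Nat.Prime 2) := ⟨Nat.prime_two⟩
  have h := Equiv.Perm.card_fixedPoints_modEq (f := F) (p := 2) (n := 2) hf
  have h1 : Fintype.card (Function.fixedPoints F) = 1 := by
    rw [Fintype.card_eq_one_iff]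
    refine ⟨⟨1, (map_one σ : σ 1 = 1)⟩, ?_⟩
    rintro ⟨y, hy⟩
    apply Subtype.ext
    exact hσ y hy
  rw [h1] at h
  rw [Nat.card_eq_fintype_card]
  rw [Nat.odd_iff]
  exact h

include hσ h4 in
/-- `σ` inverts the fixed points of `σ ^ 2`. -/
theorem inverts_fixA {a : V} (ha : a ∈ fixA σ) : σ a = a⁻¹ := by
  have hinv : ∀ x ∈ fixA σ, σ x ∈ fixA σ := by
    intro x hx
    rw [mem_fixA] at *
    rw [hx]
  obtain ⟨w, hw, rfl⟩ := exists_inv_mul_eq σ hσ (fixA σ) hinv ha
  have hw' : σ (σ w) = w := hw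
  simp [hw']

include hσ h4 in
theorem comm_fixA {a b : V} (ha : a ∈ fixA σ) (hb : b ∈ fixA σ) : a * b = b * a := by
  have h1 := inverts_fixA σ hσ h4 ((fixA σ).mul_mem ha hb)
  rw [map_mul, inverts_fixA σ hσ h4 ha, inverts_fixA σ hσ h4 hb] at h1
  have h2 : (a * b)⁻¹ = (b * a)⁻¹ := by rw [← h1]; group
  exact inv_injective h2

include hσ h4 in
/-- The norm identity. -/
theorem norm_eq_one (x : V) : x * σ x * σ (σ x) * σ (σ (σ x)) = 1 := by
  obtain ⟨w, -, rfl⟩ := exists_inv_mul_eq σ hσ (⊤ : Subgroup V) (fun _ _ => Subgroup.mem_top _)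
    (Subgroup.mem_top x)
  simp only [map_mul, map_inv, h4]
  group

include hσ h4 in
/-- Elements inverted by `σ ^ 2` commute with their image under `σ`. -/
theorem comm_of_inverted {y : V} (hy : σ (σ y) = y⁻¹) : y * σ y = σ y * y := by
  have h1 := norm_eq_one σ hσ h4 y
  rw [hy, map_inv] at h1
  have h2 : y * σ y * y⁻¹ * (σ y)⁻¹ = 1 := h1
  calc y * σ y = (y * σ y * y⁻¹ * (σ y)⁻¹) * (σ y * y) := by group
    _ = σ y * y := by rw [h2, one_mul]

/-- Squaring is injective in a subgroup of odd order. -/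
theorem eq_of_sq_eq {W : Subgroup V} (hodd : Odd (Nat.card W)) {x y : V} (hx : x ∈ W) (hy : y ∈ W)
    (h : x * x = y * y) : x = y := by
  have := Cfsg.Agent.Lib.Coprime.FPF4.eq_of_sq_eq_of_odd hodd (x := ⟨x, hx⟩) (y := ⟨y, hy⟩)
    (Subtype.ext h)
  exact congrArg Subtype.val this

/-- Factorisation with respect to the involution `σ ^ 2` in an invariant subgroup of odd order. -/
theorem exists_factor_of_mem (hτ : ∀ x, σ (σ (σ (σ x))) = x) (W : Subgroup V)
    (hW : ∀ x ∈ W, σ (σ x) ∈ W) (hodd : Odd (Nat.card W)) {x : V} (hx : x ∈ W) :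
    ∃ a ∈ W ⊓ fixA σ, ∃ z ∈ W, σ (σ z) = z⁻¹ ∧ x = a * z := by
  obtain ⟨m, hm⟩ := hodd
  set φ : V := (x⁻¹ * σ (σ x))⁻¹ with hφ
  have hφW : φ ∈ W := W.inv_mem (W.mul_mem (W.inv_mem hx) (hW x hx))
  have hφτ : σ (σ φ) = φ⁻¹ := by
    rw [hφ]
    simp only [map_mul, map_inv, hτ]
    group
  have hφ1 : φ ^ (2 * m + 1) = 1 := by
    have := pow_card_eq_one' (G := W) (x := ⟨φ, hφW⟩)
    rw [hm] at this
    exact congrArg Subtype.val this
  set z : V := φ ^ (m + 1) with hz
  have hzW : z ∈ W := W.pow_mem hφW _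
  have hzz : z * z = φ := by
    rw [hz, ← pow_add, show m + 1 + (m + 1) = (2 * m + 1) + 1 by ring, pow_succ, hφ1, one_mul]
  have hzτ : σ (σ z) = z⁻¹ := by
    rw [hz]
    simp only [map_pow, hφτ, inv_pow]
  have ha : σ (σ (x * z⁻¹)) = x * z⁻¹ := by
    simp only [map_mul, map_inv, hzτ, inv_inv]
    have h1 : σ (σ x) = x * φ⁻¹ := by rw [hφ]; group
    rw [h1, ← hzz]
    group
  exact ⟨x * z⁻¹, ⟨W.mul_mem hx (W.inv_mem hzW), ha⟩, z, hzW, hzτ, by group⟩

/-- Factorisation with respect to the involution `σ ^ 2` in an invariant subgroup of odd order. -/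
theorem card_factor (hτ : ∀ x, σ (σ (σ (σ x))) = x) (W : Subgroup V) (hW : ∀ x ∈ W, σ (σ x) ∈ W)
    (hodd : Odd (Nat.card W)) :
    Nat.card W = Nat.card ↥(W ⊓ fixA σ) * Nat.card {y : V // y ∈ W ∧ σ (σ y) = y⁻¹} := by
  classical
  rw [← Nat.card_prod]
  let f : ↥(W ⊓ fixA σ) × {y : V // y ∈ W ∧ σ (σ y) = y⁻¹} → W :=
    fun p => ⟨(p.1 : V) * (p.2 : V), W.mul_mem p.1.2.1 p.2.2.1⟩
  have hf : Function.Bijective f := by
    constructor
    · rintro ⟨⟨a, ha⟩, ⟨y, hy⟩⟩ ⟨⟨a', ha'⟩, ⟨y', hy'⟩⟩ h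
      have h1 : a * y = a' * y' := congrArg Subtype.val h
      have ha1 : σ (σ a) = a := ha.2
      have ha1' : σ (σ a') = a' := ha'.2
      have h2 : (a * y)⁻¹ * σ (σ (a * y)) = y⁻¹ * y⁻¹ := by
        simp only [map_mul, ha1, hy.2]; group
      have h3 : (a' * y')⁻¹ * σ (σ (a' * y')) = y'⁻¹ * y'⁻¹ := by
        simp only [map_mul, ha1', hy'.2]; group
      rw [h1] at h2
      have h4 := eq_of_sq_eq hodd (W.inv_mem hy.1) (W.inv_mem hy'.1) (h2.symm.trans h3)
      have h5 : y = y' := inv_injective h4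
      subst h5
      have h6 : a = a' := mul_right_cancel h1
      subst h6
      rfl
    · rintro ⟨x, hx⟩
      obtain ⟨a, ha, z, hzW, hzτ, rfl⟩ := exists_factor_of_mem σ hτ W hW hodd hx
      exact ⟨(⟨a, ha⟩, ⟨z, hzW, hzτ⟩), rfl⟩
  exact Nat.card_congr (Equiv.ofBijective f hf).symm


include hσ h4 in
/-- A power of an element of `I` is in `I`. -/
theorem inverted_zpow {y : V} (hy : σ (σ y) = y⁻¹) (e : ℤ) : σ (σ (y ^ e)) = (y ^ e)⁻¹ := by
  simp [map_zpow, hy]

theorem isPGroup_zpowers {q k : ℕ} {y : V} (h : y ^ (q ^ k) = 1) :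
    IsPGroup q (Subgroup.zpowers y) := by
  rintro ⟨g, i, rfl⟩
  refine ⟨k, Subtype.ext ?_⟩
  show (y ^ i) ^ (q ^ k) = 1
  rw [← zpow_natCast, ← zpow_mul, mul_comm, zpow_mul, zpow_natCast, h, one_zpow]

include hσ h4 in
/-- The `q`-elements of `I` lie in each invariant Sylow `q`-subgroup. -/
theorem mem_of_inverted {q : ℕ} [Fact q.Prime] (P : Sylow q V)
    (hP : ∀ x ∈ (P : Subgroup V), σ x ∈ (P : Subgroup V)) {y : V} (hy : σ (σ y) = y⁻¹) {k : ℕ}
    (hk : y ^ (q ^ k) = 1) : y ∈ (P : Subgroup V) := by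
  have hcomm := comm_of_inverted σ hσ h4 hy
  have hk' : (σ y) ^ (q ^ k) = 1 := by rw [← map_pow, hk, map_one]
  set U : Subgroup V := Subgroup.zpowers y ⊔ Subgroup.zpowers (σ y) with hU
  have hUq : IsPGroup q U := by
    refine IsPGroup.to_sup_of_normal_left' (isPGroup_zpowers hk) (isPGroup_zpowers hk') ?_
    rintro _ ⟨i, rfl⟩
    apply mem_normalizer_of_forall
    rintro _ ⟨j, rfl⟩
    have hc : Commute (σ y ^ i) (y ^ j) := ((Commute.symm hcomm).zpow_zpow i j)
    show σ y ^ i * y ^ j * (σ y ^ i)⁻¹ ∈ Subgroup.zpowers y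
    rw [hc.eq]
    simp only [mul_inv_cancel_right]
    exact ⟨j, rfl⟩
  have hUσ : ∀ x ∈ U, σ x ∈ U := by
    have : U ≤ U.comap (σ : V →* V) := by
      apply sup_le
      · rw [Subgroup.zpowers_le]
        exact (le_sup_right : Subgroup.zpowers (σ y) ≤ U) (Subgroup.mem_zpowers _)
      · rw [Subgroup.zpowers_le]
        show σ (σ y) ∈ U
        rw [hy]
        exact U.inv_mem ((le_sup_left : Subgroup.zpowers y ≤ U) (Subgroup.mem_zpowers _))
    exact fun x hx => this hx
  obtain ⟨R, hUR, hRσ⟩ := exists_invariant_sylow_ge σ hσ U hUσ hUq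
  have hRP := sylow_unique σ hσ R P hRσ hP
  rw [← hRP]
  exact hUR ((le_sup_left : Subgroup.zpowers y ≤ U) (Subgroup.mem_zpowers _))

/-- The elements of `I`. -/
abbrev II : Type u := {y : V // σ (σ y) = y⁻¹}

/-- The `q`-elements of `I`. -/
abbrev Iq (q : ℕ) : Type u := {y : V // σ (σ y) = y⁻¹ ∧ ∃ k : ℕ, y ^ (q ^ k) = 1}

include hσ h4 in
theorem card_eq_mul_II : Nat.card V = Nat.card (fixA σ) * Nat.card (II σ) := by
  have hodd := odd_card σ hσ h4
  have h1 := card_factor σ h4 (⊤ : Subgroup V) (fun _ _ => Subgroup.mem_top _) (by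
    rw [Subgroup.card_top]; exact hodd)
  rw [Subgroup.card_top, top_inf_eq] at h1
  rw [h1]
  congr 1
  exact Nat.card_congr
    { toFun := fun y => ⟨y.1, y.2.2⟩
      invFun := fun y => ⟨y.1, Subgroup.mem_top _, y.2⟩
      left_inv := fun y => rfl
      right_inv := fun y => rfl }

include hσ h4 in
/-- The number of `q`-elements of `I` is the `q`-part of the number of elements of `I`. -/
theorem card_Iq {q : ℕ} (hq : q.Prime) :
    Nat.card (Iq σ q) = q ^ (Nat.card (II σ)).factorization q := by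
  classical
  haveI : Fact q.Prime := ⟨hq⟩
  obtain ⟨P, hP⟩ := Cfsg.Agent.S0031.result σ (fun x hx => hσ x hx) q
  have hPσ : ∀ x ∈ (P : Subgroup V), σ x ∈ (P : Subgroup V) := by
    intro x hx
    rw [← hP]
    exact ⟨x, hx, rfl⟩
  have hodd := odd_card σ hσ h4
  have hoddP : Odd (Nat.card (P : Subgroup V)) :=
    Odd.of_dvd_nat hodd (Subgroup.card_subgroup_dvd_card _)
  have h1 := card_factor σ h4 (P : Subgroup V) (fun x hx => hPσ _ (hPσ x hx)) hoddP
  -- the second factor is the set in question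
  have h2 : Nat.card {y : V // y ∈ (P : Subgroup V) ∧ σ (σ y) = y⁻¹} = Nat.card (Iq σ q) := by
    refine Nat.card_congr
      { toFun := fun y => ⟨y.1, y.2.2, ?_⟩
        invFun := fun y => ⟨y.1, ?_, y.2.1⟩
        left_inv := fun y => rfl
        right_inv := fun y => rfl }
    · obtain ⟨n, hn⟩ := P.isPGroup' ⟨y.1, y.2.1⟩
      exact ⟨n, congrArg Subtype.val hn⟩
    · obtain ⟨k, hk⟩ := y.2.2
      exact mem_of_inverted σ hσ h4 P hPσ y.2.1 hk
  rw [h2] at h1
  -- the first factor has the order of the Sylow subgroup of `A`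
  have h3 : Nat.card ↥((P : Subgroup V) ⊓ fixA σ) = q ^ (Nat.card (fixA σ)).factorization q := by
    apply le_antisymm
    · -- a `q`-subgroup of `A`
      have hle : (P : Subgroup V) ⊓ fixA σ ≤ fixA σ := inf_le_right
      have hq1 : IsPGroup q ↥((P : Subgroup V) ⊓ fixA σ) := P.isPGroup'.to_le inf_le_left
      obtain ⟨n, hn⟩ := IsPGroup.iff_card.1 hq1
      have hdvd : q ^ n ∣ Nat.card (fixA σ) := by
        rw [← hn]
        exact Subgroup.card_dvd_of_le hle
      rw [hn]
      exact Nat.pow_le_pow_right hq.pos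
        ((hq.pow_dvd_iff_le_factorization Nat.card_pos.ne').1 hdvd)
    · -- the Sylow subgroup of `A`
      obtain ⟨R⟩ : Nonempty (Sylow q (fixA σ)) := inferInstance
      set R' : Subgroup V := (R : Subgroup (fixA σ)).map (fixA σ).subtype with hR'
      have hR'le : R' ≤ fixA σ := by
        rintro _ ⟨x, -, rfl⟩
        exact x.2
      have hR'σ : ∀ x ∈ R', σ x ∈ R' := by
        intro x hx
        rw [inverts_fixA σ hσ h4 (hR'le hx)]
        exact R'.inv_mem hx
      have hR'q : IsPGroup q R' := R.isPGroup'.map _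
      obtain ⟨T, hT, hTσ⟩ := exists_invariant_sylow_ge σ hσ R' hR'σ hR'q
      have hTP := sylow_unique σ hσ T P hTσ hPσ
      rw [hTP] at hT
      have hcard : Nat.card R' = q ^ (Nat.card (fixA σ)).factorization q := by
        rw [hR', Subgroup.card_map_of_injective (Subgroup.subtype_injective _)]
        exact R.card_eq_multiplicity
      rw [← hcard]
      exact Subgroup.card_le_of_le (le_inf hT hR'le)
  haveI : Nonempty (II σ) := ⟨⟨1, by simp⟩⟩
  rw [h3, P.card_eq_multiplicity, card_eq_mul_II σ hσ h4,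
    Nat.factorization_mul Nat.card_pos.ne' Nat.card_pos.ne'] at h1
  simp only [Finsupp.add_apply, pow_add] at h1
  exact (Nat.eq_of_mul_eq_mul_left (pow_pos hq.pos _) h1).symm


/-- Bezout for the parts of the order of a finite group. -/
theorem exists_exponents (hne : (Nat.card V).primeFactors.Nonempty) :
    ∃ e : ℕ → ℤ, ∑ q ∈ (Nat.card V).primeFactors, e q = 1 ∧
      ∀ q ∈ (Nat.card V).primeFactors, ∀ x : V,
        (x ^ e q) ^ (q ^ (Nat.card V).factorization q) = 1 := by
  classical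
  set n := Nat.card V with hn
  have hn0 : n ≠ 0 := Nat.card_pos.ne'
  let s : ℕ → ℤ := fun q => ((q ^ n.factorization q : ℕ) : ℤ)
  have hcop : Pairwise (Function.onFun IsCoprime fun i : (n.primeFactors : Finset ℕ) => s i) := by
    rintro ⟨a, ha⟩ ⟨b, hb⟩ hab
    have hab' : a ≠ b := fun h => hab (Subtype.ext h)
    show IsCoprime (s a) (s b)
    rw [Nat.isCoprime_iff_coprime]
    exact Nat.Coprime.pow _ _
      ((Nat.coprime_primes (Nat.prime_of_mem_primeFactors ha)
        (Nat.prime_of_mem_primeFactors hb)).2 hab')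
  obtain ⟨μ, hμ⟩ := (exists_sum_eq_one_iff_pairwise_coprime hne).2 hcop
  refine ⟨fun i => μ i * ∏ j ∈ n.primeFactors \ {i}, s j, hμ, ?_⟩
  intro q hq x
  have hprod : ∏ j ∈ n.primeFactors, s j = (n : ℤ) := by
    have h1 : ∏ j ∈ n.primeFactors, j ^ n.factorization j = n := by
      have := Nat.factorization_prod_pow_eq_self hn0
      rwa [Finsupp.prod, Nat.support_factorization] at this
    show ∏ j ∈ n.primeFactors, ((j ^ n.factorization j : ℕ) : ℤ) = (n : ℤ)
    rw [← Nat.cast_prod, h1]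
  have hsplit : (∏ j ∈ n.primeFactors \ {q}, s j) * s q = (n : ℤ) := by
    rw [← hprod]
    have := Finset.prod_sdiff (f := s) (Finset.singleton_subset_iff.2 hq)
    simpa using this
  have hxn : x ^ (n : ℤ) = 1 := by
    rw [zpow_natCast, hn]
    exact pow_card_eq_one'
  show (x ^ (μ q * ∏ j ∈ n.primeFactors \ {q}, s j)) ^ (q ^ n.factorization q) = 1
  rw [← zpow_natCast, ← zpow_mul]
  have hE : (μ q * ∏ j ∈ n.primeFactors \ {q}, s j) * ((q ^ n.factorization q : ℕ) : ℤ) =
      μ q * (n : ℤ) := by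
    rw [← hsplit, mul_assoc]
  rw [hE, mul_comm, zpow_mul, hxn, one_zpow]

/-- The product of powers along a list. -/
theorem list_prod_zpow {α : Type*} (l : List α) (e : α → ℤ) (x : V) :
    (l.map fun q => x ^ e q).prod = x ^ (l.map e).sum := by
  induction l with
  | nil => simp
  | cons a l ih =>
    simp only [List.map_cons, List.prod_cons, List.sum_cons, ih, zpow_add]

include hσ h4 in
/-- **Gorenstein-Herstein**: a fixed point free automorphism `σ` with `σ ^ 4 = 1` forces solvability. -/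
theorem isSolvable_of_fpf_four : Group.IsSolvable V := by
  classical
  by_cases hne : (Nat.card V).primeFactors.Nonempty
  swap
  · have h1 : Nat.card V = 1 := by
      by_contra h
      obtain ⟨p, hp, hdvd⟩ := Nat.exists_prime_and_dvd h
      exact hne ⟨p, Nat.mem_primeFactors.2 ⟨hp, hdvd, Nat.card_pos.ne'⟩⟩
    haveI : Subsingleton V := (Nat.card_eq_one_iff_unique.1 h1).1
    exact Group.isSolvable_of_comm (fun a b => Subsingleton.elim _ _)
  obtain ⟨e, he1, he2⟩ := exists_exponents hne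
  set π := (Nat.card V).primeFactors with hπ
  have hprime : ∀ q : π, (q : ℕ).Prime := fun q => Nat.prime_of_mem_primeFactors q.2
  have hdec : ∀ x : V, (π.toList.map fun q => x ^ e q).prod = x := by
    intro x
    rw [list_prod_zpow]
    have : (π.toList.map e).sum = ∑ q ∈ π, e q := Finset.sum_map_toList _ _
    rw [this, he1, zpow_one]
  -- the map to the product
  let F : II σ → ∀ q : π, Iq σ (q : ℕ) := fun x q =>
    ⟨x.1 ^ e q, inverted_zpow σ hσ h4 x.2 _, ⟨_, he2 q q.2 x.1⟩⟩
  have hFinj : Function.Injective F := by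
    intro x y hxy
    apply Subtype.ext
    rw [← hdec x.1, ← hdec y.1]
    congr 1
    apply List.map_congr_left
    intro q hq
    have hq' : q ∈ π := Finset.mem_toList.1 hq
    have := congrFun hxy ⟨q, hq'⟩
    exact congrArg Subtype.val this
  have hFcard : Nat.card (II σ) = Nat.card (∀ q : π, Iq σ (q : ℕ)) := by
    rw [Nat.card_pi]
    have h1 : ∀ q : π, Nat.card (Iq σ (q : ℕ)) = (q : ℕ) ^ (Nat.card (II σ)).factorization q :=
      fun q => card_Iq σ hσ h4 (hprime q)
    simp only [h1]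
    rw [Finset.prod_coe_sort π (fun q => q ^ (Nat.card (II σ)).factorization q)]
    haveI : Nonempty (II σ) := ⟨⟨1, by simp⟩⟩
    have h2 : Nat.card (II σ) ≠ 0 := Nat.card_pos.ne'
    have hsub : (Nat.card (II σ)).primeFactors ⊆ π := by
      apply Nat.primeFactors_mono
      · rw [card_eq_mul_II σ hσ h4]
        exact Dvd.intro_left _ rfl
      · exact Nat.card_pos.ne'
    rw [← Finset.prod_subset hsub]
    · have := Nat.factorization_prod_pow_eq_self h2
      rw [Finsupp.prod, Nat.support_factorization] at this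
      exact this.symm
    · intro q _ hq
      have : (Nat.card (II σ)).factorization q = 0 := by
        rw [← Finsupp.notMem_support_iff, Nat.support_factorization]
        exact hq
      rw [this, pow_zero]
  have hFbij : Function.Bijective F := (Nat.bijective_iff_injective_and_card F).2 ⟨hFinj, hFcard⟩
  -- commuting of different primes
  have hcomm : ∀ q r : π, q ≠ r → ∀ (u : Iq σ (q : ℕ)) (v : Iq σ (r : ℕ)), Commute u.1 v.1 := by
    intro q r hqr u v
    let f : ∀ q : π, Iq σ (q : ℕ) :=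
      Function.update (Function.update (fun q => ⟨1, by simp, 0, by simp⟩) q u) r v
    obtain ⟨x, hx⟩ := hFbij.2 f
    have h1 : x.1 ^ e q = u.1 := by
      have := congrFun hx q
      have h2 : f q = u := by
        simp only [f]
        rw [Function.update_of_ne hqr, Function.update_self]
      rw [h2] at this
      exact congrArg Subtype.val this
    have h3 : x.1 ^ e r = v.1 := by
      have := congrFun hx r
      have h2 : f r = v := by
        simp only [f]
        rw [Function.update_self]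
      rw [h2] at this
      exact congrArg Subtype.val this
    rw [← h1, ← h3]
    exact (Commute.refl x.1).zpow_zpow _ _
  -- the subgroups generated
  let H : π → Subgroup V := fun q =>
    Subgroup.closure {y : V | σ (σ y) = y⁻¹ ∧ ∃ k : ℕ, y ^ ((q : ℕ) ^ k) = 1}
  have hHcomm : Pairwise fun i j => ∀ x y : V, x ∈ H i → y ∈ H j → Commute x y := by
    intro i j hij x y hx hy
    have h1 : H i ≤ Subgroup.centralizer (H j : Set V) := by
      rw [Subgroup.closure_le]
      intro u hu
      rw [SetLike.mem_coe, Subgroup.mem_centralizer_iff]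
      intro w hw
      have h2 : H j ≤ Subgroup.centralizer ({u} : Set V) := by
        rw [Subgroup.closure_le]
        intro v hv
        rw [SetLike.mem_coe, Subgroup.mem_centralizer_singleton_iff]
        exact (hcomm i j hij ⟨u, hu⟩ ⟨v, hv⟩).symm.eq.symm ▸ rfl
      exact (Subgroup.mem_centralizer_singleton_iff.1 (h2 hw)).symm ▸ rfl
    exact (Subgroup.mem_centralizer_iff.1 (h1 hx) y hy).symm
  -- each is a `q`-group
  have hHq : ∀ q : π, IsPGroup (q : ℕ) (H q) := by
    intro q
    haveI : Fact (q : ℕ).Prime := ⟨hprime q⟩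
    obtain ⟨P, hP⟩ := Cfsg.Agent.S0031.result σ (fun x hx => hσ x hx) (q : ℕ)
    have hPσ : ∀ x ∈ (P : Subgroup V), σ x ∈ (P : Subgroup V) := by
      intro x hx
      rw [← hP]
      exact ⟨x, hx, rfl⟩
    refine P.isPGroup'.to_le ?_
    rw [Subgroup.closure_le]
    rintro y ⟨hy, k, hk⟩
    exact mem_of_inverted σ hσ h4 P hPσ hy hk
  haveI hHnil : ∀ q : π, Group.IsNilpotent (H q) := fun q => by
    haveI : Fact (q : ℕ).Prime := ⟨hprime q⟩
    exact (hHq q).isNilpotent
  have hHsup : ∀ q : π, H q ≤ ⨆ i, H i := fun q => le_iSup H q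
  -- the closure of `I`
  set B : Subgroup V := Subgroup.closure {y : V | σ (σ y) = y⁻¹} with hB
  have hBle : B ≤ ⨆ i, H i := by
    rw [Subgroup.closure_le]
    intro y hy
    have hy' : σ (σ y) = y⁻¹ := hy
    rw [SetLike.mem_coe, ← hdec y]
    apply Subgroup.list_prod_mem
    intro z hz
    obtain ⟨q, hq, rfl⟩ := List.mem_map.1 hz
    have hq' : q ∈ π := Finset.mem_toList.1 hq
    exact hHsup ⟨q, hq'⟩ (Subgroup.subset_closure
      ⟨inverted_zpow σ hσ h4 hy' _, _, he2 q hq' y⟩)
  have hBsolv : Group.IsSolvable B := by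
    let N := Subgroup.noncommPiCoprod hHcomm
    have hr : N.range = ⨆ i, H i := Subgroup.noncommPiCoprod_range
    haveI hrsolv : Group.IsSolvable N.range :=
      Group.isSolvable_of_surjective (f := N.rangeRestrict) N.rangeRestrict_surjective
    exact solvable_of_solvable_injective (f := Subgroup.inclusion (hBle.trans hr.symm.le))
      (Subgroup.inclusion_injective _)
  -- factorisation of elements
  have hodd := odd_card σ hσ h4
  have hfac : ∀ v : V, ∃ a ∈ fixA σ, ∃ z, σ (σ z) = z⁻¹ ∧ v = a * z := by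
    intro v
    obtain ⟨a, ha, z, -, hz, rfl⟩ := exists_factor_of_mem σ h4 (⊤ : Subgroup V)
      (fun _ _ => Subgroup.mem_top _) (by rw [Subgroup.card_top]; exact hodd) (Subgroup.mem_top v)
    exact ⟨a, ha.2, z, hz, rfl⟩
  -- normality
  have hBn : B.Normal := by
    have hA : ∀ a ∈ fixA σ, a ∈ Subgroup.normalizer (B : Set V) := by
      intro a ha
      apply mem_normalizer_of_forall
      have hle : B ≤ B.comap (MulAut.conj a).toMonoidHom := by
        rw [Subgroup.closure_le]
        intro y hy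
        have hy' : σ (σ y) = y⁻¹ := hy
        have ha' : σ (σ a) = a := ha
        refine Subgroup.subset_closure ?_
        show σ (σ (a * y * a⁻¹)) = (a * y * a⁻¹)⁻¹
        simp only [map_mul, map_inv, ha', hy']
        group
      exact fun x hx => hle hx
    have hN : Subgroup.normalizer (B : Set V) = ⊤ := by
      rw [eq_top_iff]
      intro v _
      obtain ⟨a, ha, z, hz, rfl⟩ := hfac v
      exact Subgroup.mul_mem _ (hA a ha) (Subgroup.le_normalizer (Subgroup.subset_closure hz))
    exact Subgroup.normalizer_eq_top_iff.1 hN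
  haveI := hBn
  haveI hAsolv : Group.IsSolvable (fixA σ) := Group.isSolvable_of_comm (fun a b =>
    Subtype.ext (comm_fixA σ hσ h4 a.2 b.2))
  haveI hqsolv : Group.IsSolvable (V ⧸ B) := by
    refine Group.isSolvable_of_surjective (f := (QuotientGroup.mk' B).comp (fixA σ).subtype) ?_
    intro w
    obtain ⟨v, rfl⟩ := QuotientGroup.mk'_surjective B w
    obtain ⟨a, ha, z, hz, rfl⟩ := hfac v
    refine ⟨⟨a, ha⟩, ?_⟩
    simp only [MonoidHom.comp_apply, Subgroup.subtype_apply, QuotientGroup.mk'_apply]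
    rw [QuotientGroup.eq]
    have : a⁻¹ * (a * z) = z := by group
    rw [this]
    exact Subgroup.subset_closure hz
  exact Group.isSolvable_of_ker_le_range B.subtype (QuotientGroup.mk' B) (by
    intro x hx
    rw [QuotientGroup.ker_mk'] at hx
    exact ⟨⟨x, hx⟩, rfl⟩)

end Four

end Cfsg.Agent.Lib.Camina.GH4
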