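import Mathlib
import Cfsg.Agent.Lib.Coprime.Generation

/-!
# Two commuting automorphisms

If `a`, `b` are commuting automorphisms of `p`-power order of a finite `p'`-group `V`, such that
`a ^ i * b ^ j` is fixed point free whenever `p` does not divide both `i` and `j`, then `V` is
trivial.
-/

set_option autoImplicit false
set_option linter.style.haveILetI false
set_option linter.unusedSectionVars false
set_option linter.deprecated false

namespace Cfsg.Agent.Lib.Camina.NC

universe u

/-- In a cyclic `p`-group, of two elements one is a power of the other. -/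
theorem mem_zpowers_or_of_isCyclic {Q : Type*} [Group Q] [Finite Q] [IsCyclic Q] {p : ℕ}
    [hp : Fact p.Prime] (hQ : IsPGroup p Q) (x y : Q) :
    x ∈ Subgroup.zpowers y ∨ y ∈ Subgroup.zpowers x := by
  classical
  cases nonempty_fintype Q
  have key : ∀ x y : Q, orderOf x ≤ orderOf y → x ∈ Subgroup.zpowers y := by
    intro x y hxy
    obtain ⟨i, hi⟩ := (IsPGroup.iff_orderOf.1 hQ) x
    obtain ⟨j, hj⟩ := (IsPGroup.iff_orderOf.1 hQ) y
    have hij : i ≤ j := by
      rw [hi, hj] at hxy
      exact (Nat.pow_le_pow_iff_right hp.out.one_lt).1 hxy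
    have hx : x ^ (p ^ j) = 1 := by
      apply orderOf_dvd_iff_pow_eq_one.1
      rw [hi]
      exact pow_dvd_pow _ hij
    have hcard := IsCyclic.card_pow_eq_one_le (α := Q) (n := p ^ j) (pow_pos hp.out.pos _)
    have hsub : ((Subgroup.zpowers y : Set Q).toFinset) ⊆ Finset.univ.filter (fun a : Q => a ^ (p ^ j) = 1) := by
      intro z hz
      simp only [Set.mem_toFinset, SetLike.mem_coe] at hz
      obtain ⟨k, rfl⟩ := hz
      simp only [Finset.mem_filter, Finset.mem_univ, true_and]
      rw [← zpow_natCast, ← zpow_mul, mul_comm, zpow_mul, zpow_natCast, ← hj, pow_orderOf_eq_one,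
        one_zpow]
    have hcy : ((Subgroup.zpowers y : Set Q).toFinset).card = p ^ j := by
      rw [← hj, ← Nat.card_zpowers, ← Nat.card_eq_card_toFinset]
      rfl
    have heq := Finset.eq_of_subset_of_card_le hsub (by rw [hcy]; exact hcard)
    have hxmem : x ∈ Finset.univ.filter (fun a : Q => a ^ (p ^ j) = 1) := by
      simp [hx]
    rw [← heq] at hxmem
    simpa using hxmem
  rcases le_total (orderOf x) (orderOf y) with h | h
  · exact Or.inl (key x y h)
  · exact Or.inr (key y x h)

/-- **Two commuting automorphisms.** -/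
theorem subsingleton_of_commuting {V : Type u} [Group V] [Finite V] {p : ℕ} [hp : Fact p.Prime]
    (a b : MulAut V) (hab : a * b = b * a) {k l : ℕ} (hak : a ^ (p ^ k) = 1) (hbl : b ^ (p ^ l) = 1)
    (hV : ¬ p ∣ Nat.card V)
    (hfpf : ∀ i j : ℤ, ¬ ((p : ℤ) ∣ i ∧ (p : ℤ) ∣ j) → ∀ x, (a ^ i * b ^ j) x = x → x = 1) :
    Subsingleton V := by
  classical
  haveI : Finite (MulAut V) := Finite.of_injective (fun f : MulAut V => (f : V → V))
    (fun f g h => MulEquiv.ext (congrFun h))
  -- the group of automorphisms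
  set E : Subgroup (MulAut V) := Subgroup.closure {a, b} with hE
  have hcommk : ∀ x ∈ ({a, b} : Set (MulAut V)), ∀ y ∈ ({a, b} : Set (MulAut V)), x * y = y * x := by
    intro x hx y hy
    rcases hx with rfl | rfl <;> rcases hy with rfl | rfl
    · rfl
    · exact hab
    · exact hab.symm
    · rfl
  letI instE : CommGroup E := Subgroup.closureCommGroupOfComm hcommk
  have haE : a ∈ E := Subgroup.subset_closure (by simp)
  have hbE : b ∈ E := Subgroup.subset_closure (by simp)
  have hEp : IsPGroup p E := by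
    have h1 : IsPGroup p (Subgroup.zpowers a ⊔ Subgroup.zpowers b : Subgroup (MulAut V)) := by
      refine IsPGroup.to_sup_of_normal_left' ?_ ?_ ?_
      · rintro ⟨g, i, rfl⟩
        refine ⟨k, Subtype.ext ?_⟩
        show (a ^ i) ^ (p ^ k) = 1
        rw [← zpow_natCast, ← zpow_mul, mul_comm, zpow_mul, zpow_natCast, hak, one_zpow]
      · rintro ⟨g, i, rfl⟩
        refine ⟨l, Subtype.ext ?_⟩
        show (b ^ i) ^ (p ^ l) = 1
        rw [← zpow_natCast, ← zpow_mul, mul_comm, zpow_mul, zpow_natCast, hbl, one_zpow]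
      · rintro _ ⟨i, rfl⟩
        rw [Subgroup.mem_normalizer_iff]
        intro x
        have hcomm : ∀ y ∈ Subgroup.zpowers a, (b ^ i) * y * (b ^ i)⁻¹ = y := by
          rintro _ ⟨j, rfl⟩
          have hc : Commute (b ^ i) (a ^ j) := (Commute.symm hab).zpow_zpow i j
          show b ^ i * a ^ j * (b ^ i)⁻¹ = a ^ j
          rw [hc.eq]
          group
        constructor
        · intro hx
          show b ^ i * x * (b ^ i)⁻¹ ∈ Subgroup.zpowers a
          rw [hcomm x hx]; exact hx
        · intro hx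
          have h2 : x = (b ^ i)⁻¹ * (b ^ i * x * (b ^ i)⁻¹) * (b ^ i)⁻¹⁻¹ := by group
          have hcomm' : ∀ y ∈ Subgroup.zpowers a, (b ^ i)⁻¹ * y * (b ^ i)⁻¹⁻¹ = y := by
            rintro _ ⟨j, rfl⟩
            have hc : Commute (b ^ i)⁻¹ (a ^ j) := ((Commute.symm hab).zpow_zpow i j).inv_left
            show (b ^ i)⁻¹ * a ^ j * (b ^ i)⁻¹⁻¹ = a ^ j
            rw [hc.eq]
            group
          rw [h2, hcomm' _ hx]; exact hx
    refine h1.to_le ?_
    rw [hE, Subgroup.closure_le]
    rintro x (rfl | rfl)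
    · exact (le_sup_left : Subgroup.zpowers x ≤ _) (Subgroup.mem_zpowers _)
    · exact (le_sup_right : Subgroup.zpowers x ≤ _) (Subgroup.mem_zpowers _)
  -- the semidirect product
  let φ : E →* MulAut V := E.subtype
  let X := V ⋊[φ] E
  haveI : Finite X := Finite.of_equiv _ SemidirectProduct.equivProd.symm
  let K : Subgroup X := (SemidirectProduct.inl : V →* X).range
  let A : Subgroup X := (SemidirectProduct.inr : E →* X).range
  have hKn : K ≤ K := le_rfl
  have hinl : Function.Injective (SemidirectProduct.inl : V →* X) := SemidirectProduct.inl_injective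
  have hinr : Function.Injective (SemidirectProduct.inr : E →* X) := SemidirectProduct.inr_injective
  have hconj : ∀ (e : E) (v : V), (SemidirectProduct.inr e : X) * SemidirectProduct.inl v *
      (SemidirectProduct.inr e : X)⁻¹ = SemidirectProduct.inl ((e : MulAut V) v) := by
    intro e v
    rw [← map_inv]
    exact (SemidirectProduct.inl_aut (φ := φ) e v).symm
  have hAab : IsMulCommutative A := by
    refine ⟨⟨?_⟩⟩
    rintro ⟨_, e, rfl⟩ ⟨_, f, rfl⟩
    apply Subtype.ext
    show (SemidirectProduct.inr e : X) * SemidirectProduct.inr f =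
      (SemidirectProduct.inr f : X) * SemidirectProduct.inr e
    rw [← map_mul, ← map_mul, mul_comm]
  have hAK : A ≤ Subgroup.normalizer (K : Set X) := by
    rintro _ ⟨e, rfl⟩
    rw [Subgroup.mem_normalizer_iff]
    intro x
    constructor
    · rintro ⟨v, rfl⟩
      exact ⟨(e : MulAut V) v, (hconj e v).symm⟩
    · rintro ⟨v, hv⟩
      refine ⟨(e⁻¹ : E).1 v, ?_⟩
      have h1 := hconj e⁻¹ v
      rw [map_inv, inv_inv] at h1
      rw [← h1, hv]
      group
  have hcardA : Nat.card A = Nat.card E := (Nat.card_congr (MonoidHom.ofInjective hinr).toEquiv).symm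
  have hcardK : Nat.card K = Nat.card V := (Nat.card_congr (MonoidHom.ofInjective hinl).toEquiv).symm
  have hcop : (Nat.card A).Coprime (Nat.card K) := by
    rw [hcardA, hcardK]
    obtain ⟨n, hn⟩ := IsPGroup.iff_card.1 hEp
    rw [hn]
    exact Nat.Coprime.pow_left _ ((Nat.Prime.coprime_iff_not_dvd hp.out).2 hV)
  have hgen := Cfsg.Agent.Lib.Coprime.Generation.le_iSup_cocyclic A K hAab hAK hcop
  -- all the centralisers are trivial
  have htriv : ∀ B ∈ Cfsg.Agent.Lib.Coprime.Generation.cocyclicSubgroups A,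
      K ⊓ Subgroup.centralizer (B : Set X) = ⊥ := by
    rintro B ⟨hBA, c, hcA, hBc⟩
    obtain ⟨c₀, rfl⟩ := hcA
    rw [eq_bot_iff]
    rintro _ ⟨⟨v, rfl⟩, hv⟩
    -- pull back to `E`
    let B₀ : Subgroup E := B.comap (SemidirectProduct.inr : E →* X)
    have hB₀map : B₀.map (SemidirectProduct.inr : E →* X) = B :=
      Subgroup.map_comap_eq_self hBA
    have hsup : B₀ ⊔ Subgroup.zpowers c₀ = ⊤ := by
      apply Subgroup.map_injective hinr
      rw [Subgroup.map_sup, hB₀map, MonoidHom.map_zpowers, hBc, ← MonoidHom.range_eq_map]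
    -- the cyclic quotient
    haveI hQc : IsCyclic (E ⧸ B₀) := by
      refine ⟨⟨(c₀ : E ⧸ B₀), ?_⟩⟩
      intro y
      obtain ⟨e, rfl⟩ := QuotientGroup.mk_surjective y
      have he : e ∈ B₀ ⊔ Subgroup.zpowers c₀ := hsup ▸ Subgroup.mem_top e
      obtain ⟨b₁, hb₁, z, hz, rfl⟩ := Subgroup.mem_sup.1 he
      obtain ⟨i, rfl⟩ := hz
      refine ⟨i, ?_⟩
      show (c₀ : E ⧸ B₀) ^ i = _
      rw [QuotientGroup.mk_mul, (QuotientGroup.eq_one_iff b₁).2 hb₁, one_mul]
      rfl
    have hQp : IsPGroup p (E ⧸ B₀) := hEp.to_quotient B₀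
    have hfix : ∀ w : E, w ∈ B₀ → (w : MulAut V) v = v := by
      intro w hw
      have hw' : (SemidirectProduct.inr w : X) ∈ B := hw
      have h1 := (Subgroup.mem_centralizer_iff.1 hv) _ hw'
      have h2 := hconj w v
      rw [h1] at h2
      have h3 : (SemidirectProduct.inl v : X) * SemidirectProduct.inr w *
          (SemidirectProduct.inr w : X)⁻¹ = SemidirectProduct.inl v := by group
      rw [h3] at h2
      exact (hinl h2).symm
    have hv1 : v = 1 := by
      rcases mem_zpowers_or_of_isCyclic hQp ((⟨a, haE⟩ : E) : E ⧸ B₀) ((⟨b, hbE⟩ : E) : E ⧸ B₀) with h | h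
      · obtain ⟨u, hu⟩ := h
        have hw : (⟨a, haE⟩ : E) * ((⟨b, hbE⟩ : E) ^ u)⁻¹ ∈ B₀ := by
          rw [← QuotientGroup.eq_one_iff, QuotientGroup.mk_mul, QuotientGroup.mk_inv,
            QuotientGroup.mk_zpow]
          have hu' : (((⟨b, hbE⟩ : E) : E ⧸ B₀)) ^ u = ((⟨a, haE⟩ : E) : E ⧸ B₀) := hu
          rw [hu', mul_inv_cancel]
        have h1 := hfix _ hw
        refine hfpf 1 (-u) ?_ v ?_
        · rintro ⟨h, -⟩
          have := Int.eq_one_of_dvd_one (by positivity) h
          have hp1 := hp.out.one_lt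
          omega
        · simpa using h1
      · obtain ⟨u, hu⟩ := h
        have hw : ((⟨a, haE⟩ : E) ^ u)⁻¹ * (⟨b, hbE⟩ : E) ∈ B₀ := by
          rw [← QuotientGroup.eq_one_iff, QuotientGroup.mk_mul, QuotientGroup.mk_inv,
            QuotientGroup.mk_zpow]
          have hu' : (((⟨a, haE⟩ : E) : E ⧸ B₀)) ^ u = ((⟨b, hbE⟩ : E) : E ⧸ B₀) := hu
          rw [hu', inv_mul_cancel]
        have h1 := hfix _ hw
        refine hfpf (-u) 1 ?_ v ?_
        · rintro ⟨-, h⟩
          have := Int.eq_one_of_dvd_one (by positivity) h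
          have hp1 := hp.out.one_lt
          omega
        · simpa using h1
    rw [hv1, map_one]
    exact Subgroup.one_mem _
  have hbot : K = ⊥ := by
    rw [eq_bot_iff]
    refine hgen.trans ?_
    exact iSup₂_le fun B hB => (htriv B hB).le
  constructor
  intro x y
  have hx : (SemidirectProduct.inl x : X) ∈ K := ⟨x, rfl⟩
  have hy : (SemidirectProduct.inl y : X) ∈ K := ⟨y, rfl⟩
  rw [hbot, Subgroup.mem_bot] at hx hy
  exact hinl (hx.trans hy.symm)

end Cfsg.Agent.Lib.Camina.NC
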