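import Mathlib
import Cfsg.Agent.S0033
import Cfsg.Agent.Lib.Camina.GH4
import Cfsg.Agent.Lib.Camina.NC
import Cfsg.Agent.Lib.Camina.LC

/-!
# The Frobenius case

A `p`-group `S` acting on a `p'`-group `N` so that the elements outside `S'` are fixed point free,
`S` is Camina with `S / S'` of exponent `p` and automorphisms transitive on `S / S'` outside `1`
preserving the kernel of the action.  Then `N` is nilpotent.
-/

set_option autoImplicit false
set_option linter.style.haveILetI false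
set_option linter.unusedSectionVars false
set_option linter.deprecated false

namespace Cfsg.Agent.Lib.Camina.FType

open scoped commutatorElement

universe u v

/-- Independence modulo the derived subgroup. -/
theorem zpow_mul_zpow_not_mem {S : Type*} [Group S] {p : ℕ} (hp : p.Prime)
    (f4 : ∀ x : S, x ^ p ∈ commutator S) {x s : S} (hx : x ∉ commutator S)
    (hs : ∀ (i : ℤ), ∀ h ∈ commutator S, s ≠ x ^ i * h) {i j : ℤ}
    (hij : ¬ ((p : ℤ) ∣ i ∧ (p : ℤ) ∣ j)) : x ^ i * s ^ j ∉ commutator S := by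
  intro hmem
  let q : S →* Abelianization S := Abelianization.of
  have hker : ∀ y, q y = 1 ↔ y ∈ commutator S := fun y => QuotientGroup.eq_one_iff y
  have hXp : q x ^ p = 1 := by rw [← map_pow]; exact (hker _).2 (f4 x)
  have hYp : q s ^ p = 1 := by rw [← map_pow]; exact (hker _).2 (f4 s)
  have h1 : q x ^ i * q s ^ j = 1 := by
    rw [← map_zpow, ← map_zpow, ← map_mul]
    exact (hker _).2 hmem
  have hprime : Prime (p : ℤ) := Nat.prime_iff_prime_int.1 hp
  by_cases hj : (p : ℤ) ∣ j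
  · have hi : ¬ (p : ℤ) ∣ i := fun h => hij ⟨h, hj⟩
    obtain ⟨c, hc⟩ := hj
    have h2 : q s ^ j = 1 := by
      rw [hc, zpow_mul, zpow_natCast, hYp, one_zpow]
    rw [h2, mul_one] at h1
    have hcop : IsCoprime i (p : ℤ) := ((Prime.coprime_iff_not_dvd hprime).2 hi).symm
    obtain ⟨a, b, hab⟩ := hcop
    have h3 : q x = 1 := by
      calc q x = q x ^ (a * i + b * (p : ℤ)) := by rw [hab, zpow_one]
        _ = (q x ^ i) ^ a * (q x ^ p) ^ b := by
          rw [zpow_add, mul_comm a i, mul_comm b (p : ℤ), zpow_mul, zpow_mul, zpow_natCast]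
        _ = 1 := by rw [h1, hXp]; simp
    exact hx ((hker _).1 h3)
  · have hcop : IsCoprime j (p : ℤ) := ((Prime.coprime_iff_not_dvd hprime).2 hj).symm
    obtain ⟨a, b, hab⟩ := hcop
    have h3 : q s = (q x ^ i) ^ (-a) := by
      have h4 : q s ^ j = (q x ^ i)⁻¹ := eq_inv_of_mul_eq_one_right h1
      calc q s = q s ^ (a * j + b * (p : ℤ)) := by rw [hab, zpow_one]
        _ = (q s ^ j) ^ a * (q s ^ p) ^ b := by
          rw [zpow_add, mul_comm a j, mul_comm b (p : ℤ), zpow_mul, zpow_mul, zpow_natCast]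
        _ = (q x ^ i) ^ (-a) := by
          rw [h4, hYp]; simp
    have h5 : q ((x ^ (i * (-a)))⁻¹ * s) = 1 := by
      rw [map_mul, map_inv, map_zpow, h3, zpow_mul]
      simp
    have h6 := (hker _).1 h5
    apply hs (i * (-a)) _ h6
    group

/-- Two commuting images give triviality. -/
theorem subsingleton_of_hom {S : Type*} {V : Type*} [Group S] [Group V] [Finite V] {p : ℕ}
    [hp : Fact p.Prime] (hS : IsPGroup p S) (hV : ¬ p ∣ Nat.card V) (φ : S →* MulAut V) (x s : S)
    (hcomm : φ x * φ s = φ s * φ x)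
    (hfpf : ∀ i j : ℤ, ¬ ((p : ℤ) ∣ i ∧ (p : ℤ) ∣ j) → ∀ v, φ (x ^ i * s ^ j) v = v → v = 1) :
    Subsingleton V := by
  obtain ⟨k, hk⟩ := hS x
  obtain ⟨l, hl⟩ := hS s
  refine NC.subsingleton_of_commuting (φ x) (φ s) hcomm (k := k) (l := l) ?_ ?_ hV ?_
  · rw [← map_pow, hk, map_one]
  · rw [← map_pow, hl, map_one]
  · intro i j hij v hv
    refine hfpf i j hij v ?_
    rw [map_mul, map_zpow, map_zpow]
    exact hv

/-- Restriction of an action to an invariant subgroup. -/
noncomputable def resHom {S : Type*} {N : Type*} [Group S] [Group N] [Finite N] (φ : S →* MulAut N)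
    (U : Subgroup N) (hU : ∀ y, ∀ v ∈ U, φ y v ∈ U) : S →* MulAut U :=
  MonoidHom.mk' (fun y => GH4.resEquiv (φ y) U (hU y)) (by
    intro a b
    ext v
    show φ (a * b) (v : N) = φ a (φ b (v : N))
    rw [map_mul]
    rfl)

@[simp] theorem resHom_coe {S : Type*} {N : Type*} [Group S] [Group N] [Finite N] (φ : S →* MulAut N)
    (U : Subgroup N) (hU : ∀ y, ∀ v ∈ U, φ y v ∈ U) (y : S) (v : U) :
    ((resHom φ U hU y v : U) : N) = φ y v := rfl

/-- **The Frobenius case.** -/
theorem solvable_of_action {S : Type u} {N : Type v} [Group S] [Finite S] [Group N] [Finite N]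
    {p : ℕ} [hp : Fact p.Prime] (hS : IsPGroup p S) (hN : ¬ p ∣ Nat.card N) (φ : S →* MulAut N)
    (f0 : ∃ x : S, x ∉ commutator S)
    (f1 : ∀ x, x ∉ commutator S → ∀ v, φ x v = v → v = 1)
    (f2 : ∀ x, x ∉ commutator S → ∀ h ∈ commutator S, ∃ s, s * x * s⁻¹ = x * h)
    (f3 : ∀ x x', x ∉ commutator S → x' ∉ commutator S →
      ∃ α : S ≃* S, x'⁻¹ * α x ∈ commutator S ∧ ∀ d, φ d = 1 → φ (α d) = 1)
    (f4 : ∀ x : S, x ^ p ∈ commutator S) : Group.IsSolvable N := by
  classical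
  by_cases hN1 : Subsingleton N
  · exact Group.isSolvable_of_comm (fun a b => Subsingleton.elim _ _)
  obtain ⟨v₀, hv₀⟩ : ∃ v : N, v ≠ 1 := by
    by_contra h
    push Not at h
    exact hN1 ⟨fun a b => (h a).trans (h b).symm⟩
  set H : Subgroup S := commutator S with hH
  set D : Subgroup S := φ.ker with hD
  have hDH : D ≤ H := by
    intro d hd
    by_contra hdH
    have h1 : φ d = 1 := MonoidHom.mem_ker.1 hd
    apply hv₀
    apply f1 d hdH
    rw [h1]
    rfl
  obtain ⟨x₀, hx₀⟩ := f0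
  -- Thompson
  have hThompson : ∀ σ : MulAut N, σ ≠ 1 → σ ^ p = 1 → (∀ v, σ v = v → v = 1) → Group.IsSolvable N := by
    intro σ hσ1 hσp hσ
    have hord : orderOf σ = p := orderOf_eq_prime hσp hσ1
    have hnil : Group.IsNilpotent N := Cfsg.Agent.S0033.result σ (fun v hv => hσ v hv) p hp.out hord
    infer_instance
  have hne1 : ∀ x, x ∉ H → φ x ≠ 1 := by
    intro x hx h1
    apply hv₀
    apply f1 x hx
    rw [h1]
    rfl
  -- class two
  let π : S →* S ⧸ D := QuotientGroup.mk' D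
  have hπ : Function.Surjective π := QuotientGroup.mk'_surjective D
  have hctop : (⊤ : Subgroup S).map π = ⊤ := Subgroup.map_top_of_surjective π hπ
  have hc : commutator (S ⧸ D) = H.map π := by
    rw [commutator_def, hH, commutator_def, Subgroup.map_commutator, hctop]
  have hmemc : ∀ x : S, x ∈ H → π x ∈ commutator (S ⧸ D) := by
    intro x hx
    rw [hc]
    exact ⟨x, hx, rfl⟩
  have hclass := LC.class_two (T := S ⧸ D) (hS.to_quotient D)
    (by
      intro z hz h hh
      obtain ⟨z, rfl⟩ := hπ z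
      rw [hc] at hh
      obtain ⟨h, hh, rfl⟩ := hh
      obtain ⟨y, hy⟩ := f2 z (fun h' => hz (hmemc z h')) h hh
      refine ⟨π y, ?_⟩
      rw [← map_inv, ← map_mul, ← map_mul, ← map_mul, hy])
    (by
      intro z z' hz hz'
      obtain ⟨z, rfl⟩ := hπ z
      obtain ⟨z', rfl⟩ := hπ z'
      obtain ⟨α, hα, hαD⟩ := f3 z z' (fun h' => hz (hmemc z h')) (fun h' => hz' (hmemc z' h'))
      have hαD' : D.map (α : S →* S) = D := GH4.map_eq_of_forward α D (fun d hd =>
        MonoidHom.mem_ker.2 (hαD d (MonoidHom.mem_ker.1 hd)))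
      let αb : (S ⧸ D) ≃* (S ⧸ D) := QuotientGroup.congr D D α hαD'
      refine ⟨αb, ?_⟩
      have h1 : αb (π z) = π (α z) := rfl
      rw [h1, ← map_inv, ← map_mul]
      exact hmemc _ hα)
  have hcomD : ∀ h ∈ H, ∀ s : S, ⁅h, s⁆ ∈ D := by
    intro h hh s
    have h1 : ⁅π h, π s⁆ ∈ ⁅commutator (S ⧸ D), (⊤ : Subgroup (S ⧸ D))⁆ :=
      Subgroup.commutator_mem_commutator (hmemc h hh) (Subgroup.mem_top _)
    rw [hclass, Subgroup.mem_bot, ← map_commutatorElement] at h1
    exact (QuotientGroup.eq_one_iff _).1 h1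
  have hcen : ∀ h ∈ H, ∀ s : S, φ h * φ s = φ s * φ h := by
    intro h hh s
    have h1 : φ ⁅h, s⁆ = 1 := MonoidHom.mem_ker.1 (hcomD h hh s)
    rw [map_commutatorElement] at h1
    exact commutatorElement_eq_one_iff_mul_comm.1 h1
  by_cases hHD : H ≤ D
  · -- a single automorphism of order `p`
    refine hThompson (φ x₀) (hne1 x₀ hx₀) ?_ (f1 x₀ hx₀)
    rw [← map_pow]
    exact MonoidHom.mem_ker.1 (hHD (f4 x₀))
  -- a central automorphism of order `p`
  obtain ⟨h₀, hh₀, hh₀D⟩ : ∃ h ∈ H, h ∉ D := by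
    by_contra h
    push Not at h
    exact hHD h
  set u : MulAut N := φ h₀ with hu
  have hu1 : u ≠ 1 := fun h => hh₀D (MonoidHom.mem_ker.2 h)
  have hucen : ∀ s : S, u * φ s = φ s * u := hcen h₀ hh₀
  obtain ⟨s, hs⟩ := f2 x₀ hx₀ h₀ hh₀
  have hba : φ s * φ x₀ * (φ s)⁻¹ = φ x₀ * u := by
    rw [← map_inv, ← map_mul, ← map_mul, hs, map_mul]
  -- `s` is independent of `x₀`
  have hsind : ∀ (i : ℤ), ∀ h ∈ H, s ≠ x₀ ^ i * h := by
    rintro i h hh rfl
    apply hu1
    have hc1 : φ (x₀ ^ i * h) * φ x₀ = φ x₀ * φ (x₀ ^ i * h) := by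
      rw [map_mul, map_zpow, mul_assoc, hcen h hh x₀, ← mul_assoc, ← mul_assoc]
      exact congrArg (· * φ h) ((Commute.refl (φ x₀)).zpow_left i).eq
    rw [hc1] at hba
    have h2 : φ x₀ * φ (x₀ ^ i * h) * (φ (x₀ ^ i * h))⁻¹ = φ x₀ := by group
    rw [h2] at hba
    exact mul_left_cancel (a := φ x₀) (by rw [mul_one]; exact hba.symm)
  have hup : u ^ p = 1 := by
    have h1 : φ s * (φ x₀) ^ p * (φ s)⁻¹ = (φ x₀ * u) ^ p := by
      rw [← hba, conj_pow]
    have hcomm : Commute (φ x₀) u := (hucen x₀).symm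
    rw [hcomm.mul_pow] at h1
    have h2 : (φ x₀) ^ p * φ s = φ s * (φ x₀) ^ p := by
      rw [← map_pow]
      exact hcen _ (f4 x₀) s
    rw [← h2] at h1
    simp only [mul_inv_cancel_right] at h1
    exact (mul_eq_left.1 h1.symm)
  -- the fixed points of `u`
  let T₀ : Subgroup N :=
    { carrier := {v | u v = v}
      mul_mem' := by
        intro a b ha hb
        show u (a * b) = a * b
        rw [map_mul, ha, hb]
      one_mem' := map_one u
      inv_mem' := by
        intro a ha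
        show u a⁻¹ = a⁻¹
        rw [map_inv, ha] }
  have hT₀mem : ∀ v, v ∈ T₀ ↔ u v = v := fun v => Iff.rfl
  have hT₀inv : ∀ y, ∀ v ∈ T₀, φ y v ∈ T₀ := by
    intro y v hv
    rw [hT₀mem] at hv ⊢
    have h1 : u (φ y v) = (u * φ y) v := rfl
    rw [h1, hucen y]
    show φ y (u v) = _
    rw [hv]
  let φ₀ : S →* MulAut T₀ := resHom φ T₀ hT₀inv
  have hT₀sub : Subsingleton T₀ := by
    refine subsingleton_of_hom hS ?_ φ₀ x₀ s ?_ ?_
    · intro hdvd
      exact hN (hdvd.trans (Subgroup.card_subgroup_dvd_card T₀))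
    · ext ⟨v, hv⟩
      show φ x₀ (φ s v) = φ s (φ x₀ v)
      have h1 : φ s * φ x₀ = φ x₀ * u * φ s := by
        rw [← hba]; group
      have h2 : φ s (φ x₀ v) = (φ x₀ * u * φ s) v := by
        rw [← h1]; rfl
      rw [h2]
      show _ = φ x₀ (u (φ s v))
      rw [(hT₀mem _).1 (hT₀inv s v hv)]
    · intro i j hij v hv
      have hnot := zpow_mul_zpow_not_mem hp.out f4 hx₀ hsind hij
      have h1 : φ (x₀ ^ i * s ^ j) (v : N) = v := congrArg Subtype.val hv
      exact Subtype.ext (f1 _ hnot _ h1)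
  refine hThompson u hu1 hup ?_
  intro v hv
  have h1 : (⟨v, hv⟩ : T₀) = 1 := Subsingleton.elim _ _
  exact congrArg Subtype.val h1

end Cfsg.Agent.Lib.Camina.FType
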