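import Mathlib
import Cfsg.Agent.S4456
import Cfsg.Agent.Lib.Char.CoprimeLayers
import Cfsg.Agent.Lib.Char.Integrality
import Cfsg.Agent.Lib.Char.Values2
import Cfsg.Agent.Lib.Char.CompleteCor

/-!
# A criterion for a normal `p`-complement

If `K ⊴ A`, `A / K` is a `p`-group and `g` is a `p`-element conjugate to all of `g K`, then every
nonlinear irreducible character of `A` has degree divisible by `p`, so that `A` has a normal
`p`-complement by Thompson's theorem.
-/

set_option autoImplicit false
set_option linter.style.haveILetI false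
set_option linter.unusedSectionVars false
set_option linter.deprecated false

namespace Cfsg.Agent.Lib.Camina.T1

open Cfsg

universe u

/-- For an irreducible character not having `K` in its kernel, the sum over a coset of `K`
vanishes. -/
theorem sum_coset_eq_zero {A : Type u} [Group A] [Finite A] {ψ : A → ℂ} (hψ : IsIrrCharacter A ψ)
    (K : Subgroup A) [hKn : K.Normal] [Fintype K] (hK : ¬ ∀ k ∈ K, ψ k = ψ 1) (g : A) :
    ∑ k : K, ψ (g * k) = 0 := by
  classical
  obtain ⟨n, ρ, hρ, rfl⟩ := hψ
  -- the fixed points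
  let W : Subrepresentation ρ :=
    ⟨{ carrier := {v | ∀ k ∈ K, ρ k v = v}
       add_mem' := by
        intro a b ha hb k hk
        simp [ha k hk, hb k hk]
       zero_mem' := by
        intro k _
        simp
       smul_mem' := by
        intro c v hv k hk
        simp [hv k hk] }, by
      intro a v hv k hk
      have h1 : a⁻¹ * k * a ∈ K := by
        have := hKn.conj_mem k hk a⁻¹
        simpa using this
      have h2 := hv _ h1
      show ρ k (ρ a v) = ρ a v
      have h3 : k * a = a * (a⁻¹ * k * a) := by group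
      rw [← Module.End.mul_apply, ← map_mul, h3, map_mul, Module.End.mul_apply, h2]⟩
  have hW : ∀ v, v ∈ W.toSubmodule ↔ ∀ k ∈ K, ρ k v = v := fun v => Iff.rfl
  set P : Module.End ℂ (Fin n → ℂ) := ∑ k : K, ρ k with hP
  have hPmem : ∀ v, P v ∈ W.toSubmodule := by
    intro v
    rw [hW]
    intro k₀ hk₀
    rw [hP, LinearMap.sum_apply, map_sum]
    have h := Equiv.sum_comp (Equiv.mulLeft (⟨k₀, hk₀⟩ : K)) (fun k : K => ρ (k : A) v)
    rw [← h]
    refine Finset.sum_congr rfl (fun k _ => ?_)
    simp only [Equiv.coe_mulLeft, Subgroup.coe_mul, map_mul, Module.End.mul_apply]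
  have hbot : W = ⊥ := by
    rcases eq_bot_or_eq_top W with h | h
    · exact h
    · exfalso
      apply hK
      intro k hk
      have h1 : ρ k = 1 := by
        refine LinearMap.ext (fun v => ?_)
        have hv : v ∈ W.toSubmodule := by rw [h]; trivial
        exact (hW v).1 hv k hk
      simp only [Representation.character, h1, map_one]
  have hP0 : P = 0 := by
    refine LinearMap.ext (fun v => ?_)
    have h1 := hPmem v
    rw [hbot] at h1
    exact h1
  have h2 : ∑ k : K, ρ.character (g * k) = LinearMap.trace ℂ _ (ρ g * P) := by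
    rw [hP, Finset.mul_sum, map_sum]
    refine Finset.sum_congr rfl (fun k _ => ?_)
    simp only [Representation.character, map_mul]
  rw [h2, hP0, mul_zero, map_zero]

/-- **The criterion.** -/
theorem dvd_degree {A : Type u} [Group A] [Finite A] (p : ℕ) (hp : p.Prime) (K : Subgroup A)
    [hKn : K.Normal] (hq : IsPGroup p (A ⧸ K)) (g : A) (hgp : ∃ j : ℕ, orderOf g = p ^ j)
    (hc : ∀ k ∈ K, IsConj g (g * k)) (χ : IrrCharacter A)
    (hχ : charDegree (χ : A → ℂ) ≠ 1) : p ∣ charDegree (χ : A → ℂ) := by
  classical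
  haveI : Fact p.Prime := ⟨hp⟩
  by_cases hK : ∀ k ∈ K, (χ : A → ℂ) k = (χ : A → ℂ) 1
  · -- degree of a character of a `p`-group
    obtain ⟨χ', ⟨m, ρ, hρ, rfl⟩, hval⟩ := Cfsg.Agent.Lib.Char.CoprimeLayers.exists_descend
      (QuotientGroup.mk' K) (QuotientGroup.mk'_surjective K) χ.2 (by
        intro z hz
        exact hK z ((QuotientGroup.eq_one_iff z).1 hz))
    have hone : (χ : A → ℂ) 1 = ρ.character 1 := by
      have := hval 1
      rw [map_one] at this
      exact this.symm
    have hdeg : charDegree (χ : A → ℂ) = m := by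
      refine Cfsg.Agent.Lib.Char.Values.IsCharacter.charDegree_eq
        (Cfsg.Agent.Lib.Char.Values.IsIrrCharacter.isCharacter χ.2) ?_
      rw [hone, Representation.char_one]
      simp
    have hdvd : m ∣ Nat.card (A ⧸ K) := by
      have := Cfsg.Agent.Lib.Char.Integrality.finrank_dvd_card ρ
      simpa using this
    obtain ⟨n, hn⟩ := IsPGroup.iff_card.1 hq
    rw [hn] at hdvd
    obtain ⟨j, -, hj⟩ := (Nat.dvd_prime_pow hp).1 hdvd
    rw [hdeg] at hχ ⊢
    rw [hj] at hχ ⊢
    have hj0 : j ≠ 0 := by
      rintro rfl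
      exact hχ (pow_zero p)
    exact dvd_pow_self p hj0
  · -- a vanishing value
    cases nonempty_fintype A
    cases nonempty_fintype K
    have h1 := sum_coset_eq_zero χ.2 K hK g
    have h2 : ∀ k : K, (χ : A → ℂ) (g * k) = (χ : A → ℂ) g := fun k =>
      (Cfsg.Agent.Lib.Char.CompleteCor.irr_apply_of_isConj (hc k k.2) χ).symm
    simp only [h2, Finset.sum_const, Finset.card_univ, nsmul_eq_mul] at h1
    have h3 : (Fintype.card K : ℂ) ≠ 0 := by
      exact_mod_cast Fintype.card_ne_zero
    have h4 : (χ : A → ℂ) g = 0 := (mul_eq_zero.1 h1).resolve_left h3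
    exact Cfsg.Agent.Lib.Char.Values2.dvd_degree_of_vanish_pelement p hp _
      (Cfsg.Agent.Lib.Char.Values.IsIrrCharacter.isCharacter χ.2) g hgp h4

/-- **Normal `p`-complement criterion.** -/
theorem exists_normal_complement {A : Type u} [Group A] [Finite A] (p : ℕ) (hp : p.Prime)
    (K : Subgroup A) [hKn : K.Normal] (hq : IsPGroup p (A ⧸ K)) (g : A)
    (hgp : ∃ j : ℕ, orderOf g = p ^ j) (hc : ∀ k ∈ K, IsConj g (g * k)) :
    ∃ N : Subgroup A, N.Normal ∧ (Nat.card N).Coprime p ∧ ∃ k : ℕ, N.index = p ^ k :=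
  Cfsg.Agent.S4456.result p hp (fun χ hχ => dvd_degree p hp K hq g hgp hc χ hχ)

end Cfsg.Agent.Lib.Camina.T1
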